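import Mathlib
import Cfsg.Agent.SzC.Table

set_option autoImplicit false
set_option linter.unusedSectionVars false

/-! Squares of conjugacy classes in a Suzuki group. -/

open scoped ComplexConjugate

namespace Cfsg.Agent.SzC

open Cfsg Cfsg.Agent.Char Cfsg.Agent.Char.Ind Cfsg.Agent.RankOne Cfsg.Agent.RankOne.Sz

/-- the character sum in the class multiplication coefficient. -/
noncomputable def cs {G : Type*} [Group G] [Fintype G] (x g : G) : ℂ :=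
  ∑ χ : IrrCharacter G, χ.1 x ^ 2 * χ.1 g / χ.1 1

theorem exists_of_cs {G : Type*} [Group G] [Fintype G] {x g : G} (h : cs x g⁻¹ ≠ 0) :
    ∃ u v : G, g = (u * x * u⁻¹) * (v * x * v⁻¹) := by
  by_contra hc
  push Not at hc
  have h1 : ∑ v : G, ∑ u : G, regChar G (u * x * u⁻¹ * (v * x * v⁻¹ * g⁻¹)) = 0 :=
    Finset.sum_eq_zero fun v _ => Finset.sum_eq_zero fun u _ => regChar_of_ne fun e => hc u v (by
      rw [← mul_assoc] at e
      exact (mul_inv_eq_one.mp e).symm)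
  simp only [← sum_irr_one_mul] at h1
  rw [Finset.sum_congr rfl fun v _ => Finset.sum_comm, Finset.sum_comm] at h1
  apply h
  apply mul_left_cancel₀ (pow_ne_zero 2 (card_ne_zero (G := G)))
  rw [mul_zero, ← h1, cs, Finset.mul_sum]
  refine Finset.sum_congr rfl fun χ _ => ?_
  have h2 := isIrr_one_ne_zero χ.2
  simp only [← Finset.mul_sum, isIrr_sum_conj_mul χ.2, ← Finset.sum_div]
  field_simp

theorem cs_conj_left {G : Type*} [Group G] [Fintype G] (x k g : G) : cs (k * x * k⁻¹) g = cs x g := by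
  simp only [cs, fun χ : IrrCharacter G => irr_classFun χ x k]

theorem cs_conj_right {G : Type*} [Group G] [Fintype G] (x k g : G) : cs x (k * g * k⁻¹) = cs x g := by
  simp only [cs, fun χ : IrrCharacter G => irr_classFun χ g k]

theorem re_sum_ge {ι : Type*} (s : Finset ι) {n y : ι → ℂ} {γ N : ℝ} (hn : ∀ i, conj (n i) = n i)
    (hy : ∀ i, γ ≤ (y i).re) (hN : ∑ i ∈ s, n i * conj (n i) = N) : N * γ ≤ (∑ i ∈ s, n i ^ 2 * y i).re := by
  have h1 := congrArg Complex.re hN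
  rw [Complex.ofReal_re, Complex.re_sum] at h1
  rw [← h1, Complex.re_sum, Finset.sum_mul]
  refine Finset.sum_le_sum fun i _ => ?_
  obtain ⟨r, hr⟩ := Complex.conj_eq_iff_real.mp (hn i)
  rw [hn, hr, ← Complex.ofReal_mul, ← Complex.ofReal_pow, Complex.ofReal_re, Complex.re_ofReal_mul, pow_two]
  exact mul_le_mul_of_nonneg_left (hy i) (mul_self_nonneg r)

theorem neg_le_re {z : ℂ} {c : ℝ} (h : ‖z‖ ≤ c) : -c ≤ z.re := (abs_le.mp ((Complex.abs_re_le_norm z).trans h)).1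

theorem neg_le_re' {z : ℂ} {c : ℝ} (h : ‖z‖ ≤ c) : -c ≤ (-z).re := neg_le_re (by rwa [norm_neg])

variable {G Ω F : Type*} [Group G] [MulAction G Ω] [Field F] [Fintype F] {m : ℕ} [Fintype G]
  {Z : Model G Ω F m} (P : Tori Z) (C : QC Z)

local notation "𝐭" => ((2 : ℝ) ^ m)

theorem cs_re (x g : G) : (cs x g).re = 1 + (St Z x ^ 2 * St Z g).re / (4 * 𝐭 ^ 4) +
    2 * (W P C x ^ 2 * W P C g).re / ((2 * 𝐭 ^ 2 - 1) * 𝐭) +
    (∑ θ ∈ np Z.D, X θ.1 x ^ 2 * X θ.1 g).re / (2 * (4 * 𝐭 ^ 4 + 1)) +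
    (∑ θ ∈ np P.T, Y P C θ.1 x ^ 2 * Y P C θ.1 g).re / (4 * ((2 * 𝐭 ^ 2 - 1) * (2 * 𝐭 ^ 2 - 2 * P.u * 𝐭 + 1))) +
    (∑ θ ∈ np P.T', Y P.swap C θ.1 x ^ 2 * Y P.swap C θ.1 g).re /
      (4 * ((2 * 𝐭 ^ 2 - 1) * (2 * 𝐭 ^ 2 + 2 * P.u * 𝐭 + 1))) := by
  have e : cs x g = 1 + (St Z x ^ 2 * St Z g) / (4 * 𝐭 ^ 4 : ℝ) +
    (W P C x ^ 2 * W P C g + conj (W P C x ^ 2 * W P C g)) / ((2 * 𝐭 ^ 2 - 1) * 𝐭 : ℝ) +
    (∑ θ ∈ np Z.D, X θ.1 x ^ 2 * X θ.1 g) / (2 * (4 * 𝐭 ^ 4 + 1) : ℝ) +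
    (∑ θ ∈ np P.T, Y P C θ.1 x ^ 2 * Y P C θ.1 g) /
      (4 * ((2 * 𝐭 ^ 2 - 1) * (2 * 𝐭 ^ 2 - 2 * P.u * 𝐭 + 1)) : ℝ) +
    (∑ θ ∈ np P.T', Y P.swap C θ.1 x ^ 2 * Y P.swap C θ.1 g) /
      (4 * ((2 * 𝐭 ^ 2 - 1) * (2 * 𝐭 ^ 2 + 2 * P.u * 𝐭 + 1)) : ℝ) := by
    rw [cs, sum_irr P C fun χ => χ x ^ 2 * χ g / χ 1]
    simp only [(val_St P).one, (val_W P C).one, fun θ : IrrCharacter Z.D => (val_X P θ.2).one,
      fun θ : IrrCharacter P.T => (val_Y P C θ.2).one, fun θ : IrrCharacter P.T' => (val_Y' P C θ.2).one,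
      ← Finset.sum_div, map_mul, map_pow, map_ofNat, map_one, map_sub]
    push_cast
    simp only [div_eq_mul_inv, mul_inv]
    rw [show (2 * ((2 : ℂ) ^ m) ^ 2) ^ 2 = 4 * ((2 : ℂ) ^ m) ^ 4 by ring, mul_inv]
    ring
  rw [e]
  simp only [Complex.add_re, Complex.div_ofReal_re, Complex.one_re, Complex.conj_re]
  ring

theorem col (x : G) : (Nat.card (Subgroup.centralizer {x}) : ℂ) = 1 + St Z x * conj (St Z x) +
    2 * (W P C x * conj (W P C x)) + 2⁻¹ * ∑ θ ∈ np Z.D, X θ.1 x * conj (X θ.1 x) +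
    4⁻¹ * ∑ θ ∈ np P.T, Y P C θ.1 x * conj (Y P C θ.1 x) +
    4⁻¹ * ∑ θ ∈ np P.T', Y P.swap C θ.1 x * conj (Y P.swap C θ.1 x) := by
  rw [← sum_irr_mul_conj_of_isConj (IsConj.refl x), sum_irr P C fun χ => χ x * conj (χ x)]
  simp only [map_one, Complex.conj_conj]
  ring

theorem real_of {f : G → ℂ} (hf : IsGeneralizedCharacter G f) {x : G} (hx : IsConj x x⁻¹) :
    conj (f x) = f x := by
  rw [← isGenChar_inv hf, classFun_isConj (isGenChar_classFun hf) hx]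

include Z in
theorem exists_t : ∃ y : ℝ, 0 ≤ y ∧ 𝐭 = 2 + y :=
  ⟨𝐭 - 2, by simpa using pow_le_pow_right₀ (a := (2 : ℝ)) (by norm_num) Z.one_le, by ring⟩

theorem re_s : ((2 : ℂ) ^ m).re = 𝐭 := by
  rw [show (2 : ℂ) ^ m = ((2 ^ m : ℝ) : ℂ) by simp, Complex.ofReal_re]

include P in
theorem pos_den : 0 < 2 * 𝐭 ^ 2 - 1 ∧ 0 < 2 * 𝐭 ^ 2 + 2 * P.u * 𝐭 + 1 ∧ 0 < 2 * 𝐭 ^ 2 - 2 * P.u * 𝐭 + 1 := by
  obtain ⟨y, hy, e⟩ := exists_t (Z := Z)
  rw [e]
  rcases P.hu with hu | hu <;> rw [hu] <;> push_cast <;> refine ⟨?_, ?_, ?_⟩ <;> nlinarith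

theorem re_Φ {x : F} (y : F) (hx : x ≠ 0) : (C.Φ (Z.S x y)).re = 0 := by
  have := congrArg Complex.re (C.conj_r y hx)
  rw [Complex.conj_re, Complex.neg_re] at this
  linarith

include C in
theorem pos_T {x : G} (hx : x ∈ P.T) (h1 : x ≠ 1) (g : G) : g ≠ 1 → 0 < (cs x g).re := by
  have a := val_St P
  have b := val_W P C
  have c := fun θ : IrrCharacter Z.D => val_X P θ.2
  have d := fun θ : IrrCharacter P.T => val_Y P C θ.2
  have e := fun θ : IrrCharacter P.T' => val_Y' P C θ.2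
  have h2 := col P C x
  rw [P.cc.cent x hx h1, P.cast_T, a.T x hx h1, b.T x hx h1] at h2
  simp only [fun θ => (c θ).T x hx h1, fun θ => (e θ).T x hx h1, zero_mul, Finset.sum_const_zero, map_neg,
    map_one, map_intCast] at h2
  obtain ⟨p1, p2, p3⟩ := pos_den P
  have key : ∀ (g : G) (α β γ : ℝ), α ≤ (St Z g).re → β ≤ (W P C g).re →
      (∀ θ : IrrCharacter P.T, γ ≤ (Y P C θ.1 g).re) →
      0 < 4 * 𝐭 ^ 4 * (2 * 𝐭 ^ 2 - 1) * (2 * 𝐭 ^ 2 - 2 * P.u * 𝐭 + 1) +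
        α * (2 * 𝐭 ^ 2 - 1) * (2 * 𝐭 ^ 2 - 2 * P.u * 𝐭 + 1) + 8 * β * 𝐭 ^ 3 * (2 * 𝐭 ^ 2 - 2 * P.u * 𝐭 + 1) +
        4 * 𝐭 ^ 4 * (2 * 𝐭 ^ 2 + 2 * P.u * 𝐭 - 3) * γ → 0 < (cs x g).re := by
    intro g α β γ hα hβ hγ h
    have h3 := re_sum_ge (np P.T) (N := 4 * (2 * 𝐭 ^ 2 + 2 * P.u * 𝐭 - 3))
      (fun θ => real_of (d θ).gen (P.cc.isConj_inv (by norm_num) P.odd_T hx)) hγ (by
        push_cast
        linear_combination -4 * h2 - 8 * P.u_sq)
    rw [cs_re P C, a.T x hx h1, b.T x hx h1, P.u_sq, neg_one_sq, one_mul, one_mul]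
    simp only [fun θ => (c θ).T x hx h1, fun θ => (e θ).T x hx h1, ne_eq, OfNat.ofNat_ne_zero,
      not_false_eq_true, zero_pow, zero_mul, Finset.sum_const_zero, Complex.zero_re, zero_div, add_zero]
    have ht : 0 < 𝐭 := by positivity
    generalize 2 * 𝐭 ^ 2 - 1 = p at *
    generalize 2 * 𝐭 ^ 2 - 2 * P.u * 𝐭 + 1 = k' at *
    generalize 2 * 𝐭 ^ 2 + 2 * P.u * 𝐭 - 3 = k at *
    generalize 𝐭 = t at *
    calc 0 < (4 * t ^ 4 * p * k' + α * p * k' + 8 * β * t ^ 3 * k' + 4 * t ^ 4 * k * γ) / (4 * t ^ 4 * p * k') := by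
          positivity
      _ = 1 + α / (4 * t ^ 4) + 2 * β / (p * t) + 4 * k * γ / (4 * (p * k')) := by field_simp; ring
      _ ≤ _ := by gcongr
  obtain ⟨y, hy, ey⟩ := exists_t (Z := Z)
  induction g using P.cases with
  | hc g k h => exact fun hg => cs_conj_right x k g ▸ h (by simpa using hg)
  | h1 => exact fun h => absurd rfl h
  | hs z h =>
    refine fun _ => key _ 0 (-𝐭) (2 * P.u * 𝐭 - 1) (by simp [a.s z h]) (by simp [b.s z h, re_s])
      (fun θ => by simp [(d θ).s z h, re_s]) ?_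
    rw [ey]
    rcases P.hu with hu | hu <;> rw [hu] <;> push_cast <;> ring_nf <;> positivity
  | hr z w h =>
    refine fun _ => key _ 0 0 (-1) (by simp [a.r z w h]) (by simp [b.r z w h, re_Φ C w h])
      (fun θ => by simp [(d θ).r z w h]) ?_
    rw [ey]
    rcases P.hu with hu | hu <;> rw [hu] <;> push_cast <;> ring_nf <;> positivity
  | hD g hg h =>
    refine fun _ => key _ 1 0 0 (by simp [a.D g hg h]) (by simp [b.D g hg h]) (fun θ => by simp [(d θ).D g hg h]) ?_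
    rw [ey]
    rcases P.hu with hu | hu <;> rw [hu] <;> push_cast <;> ring_nf <;> positivity
  | hT g hg h =>
    refine fun _ => key _ (-1) P.u (-(4 : ℕ)) (by simp [a.T g hg h]) (by simp [b.T g hg h])
      (fun θ => (d θ).T g hg h ▸ neg_le_re' (P.cc.norm_ind_le θ.2 hg h)) ?_
    rw [ey]
    rcases P.hu with hu | hu <;> rw [hu] <;> push_cast <;> ring_nf <;> positivity
  | hT' g hg h =>
    refine fun _ => key _ (-1) (-P.u) 0 (by simp [a.T' g hg h]) (by simp [b.T' g hg h])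
      (fun θ => by simp [(d θ).T' g hg h]) ?_
    rw [ey]
    rcases P.hu with hu | hu <;> rw [hu] <;> push_cast <;> ring_nf <;> positivity

include P C in
theorem pos_D {x : G} (hx : x ∈ Z.D) (h1 : x ≠ 1) (g : G) : g ≠ 1 → 0 < (cs x g).re := by
  have a := val_St P
  have b := val_W P C
  have c := fun θ : IrrCharacter Z.D => val_X P θ.2
  have d := fun θ : IrrCharacter P.T => val_Y P C θ.2
  have e := fun θ : IrrCharacter P.T' => val_Y' P C θ.2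
  have h2 := col P C x
  rw [(ccD Z).cent x hx h1, cast_D, a.D x hx h1, b.D x hx h1] at h2
  simp only [fun θ => (d θ).D x hx h1, fun θ => (e θ).D x hx h1, zero_mul, Finset.sum_const_zero,
    map_one] at h2
  have key : ∀ (g : G), -1 ≤ (St Z g).re → (∀ θ : IrrCharacter Z.D, -2 ≤ (X θ.1 g).re) → 0 < (cs x g).re := by
    intro g hα hγ
    have h3 := re_sum_ge (np Z.D) (N := 2 * (2 * 𝐭 ^ 2 - 3))
      (fun θ => real_of (c θ).gen ((ccD Z).isConj_inv (by norm_num) (Z.card_D ▸ Z.odd_q_sub_one) hx)) hγ (by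
        push_cast
        linear_combination -2 * h2)
    rw [cs_re P C, a.D x hx h1, b.D x hx h1, one_pow, one_mul]
    simp only [fun θ => (d θ).D x hx h1, fun θ => (e θ).D x hx h1, ne_eq, OfNat.ofNat_ne_zero,
      not_false_eq_true, zero_pow, zero_mul, Finset.sum_const_zero, Complex.zero_re, zero_div, add_zero,
      mul_zero]
    obtain ⟨y, hy, ey⟩ := exists_t (Z := Z)
    have h : 0 < 4 * 𝐭 ^ 4 * (4 * 𝐭 ^ 4 + 1) - (4 * 𝐭 ^ 4 + 1) - 8 * 𝐭 ^ 4 * (2 * 𝐭 ^ 2 - 3) := by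
      rw [ey]; ring_nf; positivity
    have ht : 0 < 𝐭 := by positivity
    generalize 𝐭 = t at *
    calc 0 < (4 * t ^ 4 * (4 * t ^ 4 + 1) - (4 * t ^ 4 + 1) - 8 * t ^ 4 * (2 * t ^ 2 - 3)) /
          (4 * t ^ 4 * (4 * t ^ 4 + 1)) := by positivity
      _ = 1 + -1 / (4 * t ^ 4) + 2 * (2 * t ^ 2 - 3) * -2 / (2 * (4 * t ^ 4 + 1)) := by field_simp; ring
      _ ≤ _ := by gcongr
  induction g using P.cases with
  | hc g k h => exact fun hg => cs_conj_right x k g ▸ h (by simpa using hg)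
  | h1 => exact fun h => absurd rfl h
  | hs z h => exact fun _ => key _ (by simp [a.s z h]) fun θ => by rw [(c θ).s z h]; norm_num
  | hr z w h => exact fun _ => key _ (by simp [a.r z w h]) fun θ => by rw [(c θ).r z w h]; norm_num
  | hD g hg h =>
    exact fun _ => key _ (by simp [a.D g hg h]) fun θ => by
      simpa [(c θ).D g hg h] using neg_le_re ((ccD Z).norm_ind_le θ.2 hg h)
  | hT g hg h => exact fun _ => key _ (by simp [a.T g hg h]) fun θ => by simp [(c θ).T g hg h]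
  | hT' g hg h => exact fun _ => key _ (by simp [a.T' g hg h]) fun θ => by simp [(c θ).T' g hg h]

include P C in
theorem pos_r {x : F} (x' : F) (hx : x ≠ 0) (g : G) : g ≠ 1 → 0 < (cs (Z.S x x') g).re := by
  have a := val_St P
  have b := val_W P C
  have c := fun θ : IrrCharacter Z.D => val_X P θ.2
  have d := fun θ : IrrCharacter P.T => val_Y P C θ.2
  have e := fun θ : IrrCharacter P.T' => val_Y' P C θ.2
  obtain ⟨p1, p2, p3⟩ := pos_den P
  have key : ∀ (g : G) (β γ δ δ' : ℝ), (W P C g).re ≤ β → (∀ θ : IrrCharacter Z.D, γ ≤ (X θ.1 g).re) →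
      (∀ θ : IrrCharacter P.T, δ ≤ (Y P C θ.1 g).re) → (∀ θ : IrrCharacter P.T', δ' ≤ (Y P.swap C θ.1 g).re) →
      0 < 2 * (2 * 𝐭 ^ 2 - 1) * (4 * 𝐭 ^ 4 + 1) - 4 * 𝐭 * β * (4 * 𝐭 ^ 4 + 1) +
        (2 * 𝐭 ^ 2 - 1) * (2 * 𝐭 ^ 2 - 2) * γ + (𝐭 ^ 2 + P.u * 𝐭) * δ * (2 * 𝐭 ^ 2 + 2 * P.u * 𝐭 + 1) +
        (𝐭 ^ 2 - P.u * 𝐭) * δ' * (2 * 𝐭 ^ 2 - 2 * P.u * 𝐭 + 1) → 0 < (cs (Z.S x x') g).re := by
    intro g β γ δ δ' hβ hγ hδ hδ' h
    have h3 := re_sum_ge (np Z.D) (N := 2 * 𝐭 ^ 2 - 2) (n := fun θ => X θ.1 (Z.S x x'))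
      (fun θ => by simp [(c θ).r x x' hx]) hγ (by
        rw [sum_np_const (c := 1) (ccD Z) fun θ => by simp [(c θ).r x x' hx], cast_D]
        push_cast; ring)
    have h4 := re_sum_ge (np P.T) (N := 2 * (𝐭 ^ 2 + P.u * 𝐭)) (n := fun θ => Y P C θ.1 (Z.S x x'))
      (fun θ => by simp [(d θ).r x x' hx]) hδ (by
        rw [sum_np_const (c := 1) P.cc fun θ => by simp [(d θ).r x x' hx], P.cast_T]
        push_cast; ring)
    have h5 := re_sum_ge (np P.T') (N := 2 * (𝐭 ^ 2 - P.u * 𝐭)) (n := fun θ => Y P.swap C θ.1 (Z.S x x'))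
      (fun θ => by simp [(e θ).r x x' hx]) hδ' (by
        rw [sum_np_const (c := 1) P.cc' fun θ => by simp [(e θ).r x x' hx], P.cast_T']
        push_cast; ring)
    have h6 : -𝐭 ^ 2 * β ≤ (W P C (Z.S x x') ^ 2 * W P C g).re := by
      rw [b.r x x' hx, C.Φr x x' hx, show -((2 : ℂ) ^ m) ^ 2 = ((-𝐭 ^ 2 : ℝ) : ℂ) by simp,
        Complex.re_ofReal_mul]
      exact mul_le_mul_of_nonpos_left hβ (by simp)
    rw [cs_re P C, a.r x x' hx]
    simp only [ne_eq, OfNat.ofNat_ne_zero, not_false_eq_true, zero_pow, zero_mul, Complex.zero_re, zero_div,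
      add_zero]
    have ht : 0 < 𝐭 := by positivity
    have hk : 4 * 𝐭 ^ 4 + 1 = (2 * 𝐭 ^ 2 + 2 * P.u * 𝐭 + 1) * (2 * 𝐭 ^ 2 - 2 * P.u * 𝐭 + 1) := by
      rcases P.hu with hu | hu <;> rw [hu] <;> push_cast <;> ring
    rw [hk] at h ⊢
    generalize 2 * 𝐭 ^ 2 - 1 = p at *
    generalize 2 * 𝐭 ^ 2 - 2 * P.u * 𝐭 + 1 = k' at *
    generalize 2 * 𝐭 ^ 2 + 2 * P.u * 𝐭 + 1 = k at *
    generalize 𝐭 ^ 2 + P.u * 𝐭 = l at *
    generalize 𝐭 ^ 2 - P.u * 𝐭 = l' at *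
    generalize 2 * 𝐭 ^ 2 - 2 = n at *
    generalize 𝐭 = t at *
    calc 0 < (2 * p * (k * k') - 4 * t * β * (k * k') + p * n * γ + l * δ * k + l' * δ' * k') /
          (2 * p * (k * k')) := by positivity
      _ = 1 + 2 * (-t ^ 2 * β) / (p * t) + n * γ / (2 * (k * k')) + 2 * l * δ / (4 * (p * k')) +
          2 * l' * δ' / (4 * (p * k)) := by field_simp; ring
      _ ≤ _ := by gcongr
  obtain ⟨y, hy, ey⟩ := exists_t (Z := Z)
  induction g using P.cases with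
  | hc g k h => exact fun hg => cs_conj_right _ k g ▸ h (by simpa using hg)
  | h1 => exact fun h => absurd rfl h
  | hs z h =>
    refine fun _ => key _ (-𝐭) 1 (2 * P.u * 𝐭 - 1) (-(2 * P.u * 𝐭) - 1) (by simp [b.s z h, re_s])
      (fun θ => by simp [(c θ).s z h]) (fun θ => by simp [(d θ).s z h, re_s])
      (fun θ => by simp [(e θ).s z h, re_s]) ?_
    rw [ey]
    rcases P.hu with hu | hu <;> rw [hu] <;> push_cast <;> ring_nf <;> positivity
  | hr z w h =>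
    refine fun _ => key _ 0 1 (-1) (-1) (by simp [b.r z w h, re_Φ C w h])
      (fun θ => by simp [(c θ).r z w h]) (fun θ => by simp [(d θ).r z w h]) (fun θ => by simp [(e θ).r z w h]) ?_
    rw [ey]
    rcases P.hu with hu | hu <;> rw [hu] <;> push_cast <;> ring_nf <;> positivity
  | hD g hg h =>
    refine fun _ => key _ 0 (-(2 : ℕ)) 0 0 (by simp [b.D g hg h])
      (fun θ => (c θ).D g hg h ▸ neg_le_re ((ccD Z).norm_ind_le θ.2 hg h))
      (fun θ => by simp [(d θ).D g hg h]) (fun θ => by simp [(e θ).D g hg h]) ?_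
    rw [ey]
    rcases P.hu with hu | hu <;> rw [hu] <;> push_cast <;> ring_nf <;> positivity
  | hT g hg h =>
    refine fun _ => key _ P.u 0 (-(4 : ℕ)) 0 (by simp [b.T g hg h]) (fun θ => by simp [(c θ).T g hg h])
      (fun θ => (d θ).T g hg h ▸ neg_le_re' (P.cc.norm_ind_le θ.2 hg h)) (fun θ => by simp [(e θ).T g hg h]) ?_
    rw [ey]
    rcases P.hu with hu | hu <;> rw [hu] <;> push_cast <;> ring_nf <;> positivity
  | hT' g hg h =>
    refine fun _ => key _ (-P.u) 0 0 (-(4 : ℕ)) (by simp [b.T' g hg h]) (fun θ => by simp [(c θ).T' g hg h])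
      (fun θ => by simp [(d θ).T' g hg h])
      (fun θ => (e θ).T' g hg h ▸ neg_le_re' (P.cc'.norm_ind_le θ.2 hg h)) ?_
    rw [ey]
    rcases P.hu with hu | hu <;> rw [hu] <;> push_cast <;> ring_nf <;> positivity

include Z in
theorem cover (x : G) : 2 < orderOf x → ∀ g : G, g ≠ 1 → ∃ u v : G, g = (u * x * u⁻¹) * (v * x * v⁻¹) := by
  obtain ⟨P, -⟩ := exists_tori Z
  obtain ⟨C⟩ := nonempty_QC Z
  suffices h : 2 < orderOf x → ∀ g : G, g ≠ 1 → 0 < (cs x g).re by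
    intro hx g hg
    refine exists_of_cs fun e => ?_
    simpa [e] using h hx g⁻¹ (by simpa using hg)
  induction x using P.cases with
  | hc x k h =>
    intro hx g hg
    have e1 : orderOf (k * x * k⁻¹) = orderOf x := (MulAut.conj k).orderOf_eq x
    exact cs_conj_left x k g ▸ h (e1 ▸ hx) g hg
  | h1 => simp
  | hs z h => simp [Z.orderOf_S_zero h]
  | hr z w h => exact fun _ => pos_r P C w h
  | hD g hg h => exact fun _ => pos_D P C hg h
  | hT g hg h => exact fun _ => pos_T P C hg h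
  | hT' g hg h => exact fun _ => pos_T P.swap C hg h

end Cfsg.Agent.SzC
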