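import Mathlib
import Cfsg.Agent.SzC.Cover

set_option autoImplicit false
set_option linter.unusedSectionVars false

/-! General lower bounds for class multiplication coefficients. -/

open scoped ComplexConjugate

namespace Cfsg.Agent.SzC

open Cfsg Cfsg.Agent.Char Cfsg.Agent.Char.Ind Cfsg.Agent.RankOne

variable {G : Type*} [Group G] [Fintype G]

theorem deg_pos (χ : IrrCharacter G) : 0 < (χ.1 1).re ∧ χ.1 1 = (χ.1 1).re := by
  obtain ⟨n, h, e⟩ := isIrr_degree χ.2
  rw [e]; simpa using h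

theorem cs_re_eq {x : G} (hx : IsConj x x⁻¹) (g : G) :
    (cs x g).re = ∑ χ : IrrCharacter G, ‖χ.1 x‖ ^ 2 * ((χ.1 g).re / (χ.1 1).re) := by
  rw [cs, Complex.re_sum]
  refine Finset.sum_congr rfl fun χ _ => ?_
  obtain ⟨r, hr⟩ := Complex.conj_eq_iff_real.mp (real_of (irr_isGenChar χ) hx)
  rw [hr, (deg_pos χ).2, Complex.div_ofReal_re, ← Complex.ofReal_pow, Complex.re_ofReal_mul, Complex.norm_real,
    Real.norm_eq_abs, sq_abs, Complex.ofReal_re, mul_div_assoc]

open Classical in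
theorem cs_ge {x g : G} (hx : IsConj x x⁻¹) (E : (G → ℂ) → Prop) (h1 : ¬ E fun _ => 1) {μ ν a : ℝ}
    (hμ : 0 ≤ μ) (hν : 0 ≤ ν)
    (hR : ∀ χ, IsIrrCharacter G χ → (χ ≠ fun _ => 1) → ¬ E χ → -(μ * (χ 1).re) ≤ (χ g).re)
    (hE : ∀ χ, IsIrrCharacter G χ → E χ → -(ν * (χ 1).re) ≤ (χ g).re)
    (ha : ∑ χ : IrrCharacter G with ¬ E χ.1, ‖χ.1 x‖ ^ 2 ≤ a) :
    1 - μ * (a - 1) - ν * Nat.card (Subgroup.centralizer {x}) ≤ (cs x g).re := by
  let t : IrrCharacter G := ⟨fun _ => 1, isIrr_one⟩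
  have h2 : ∀ χ : IrrCharacter G, (if χ = t then 1 + μ else 0) - μ * (if ¬ E χ then ‖χ.1 x‖ ^ 2 else 0) -
      ν * ‖χ.1 x‖ ^ 2 ≤ ‖χ.1 x‖ ^ 2 * ((χ.1 g).re / (χ.1 1).re) := by
    intro χ
    have hd := (deg_pos χ).1
    have hn : 0 ≤ ‖χ.1 x‖ ^ 2 := by positivity
    by_cases ht : χ = t
    · subst ht
      simp [t, h1, hν]
    · by_cases he : E χ
      · have := hE χ χ.2 he
        have h3 : -ν ≤ (χ.1 g).re / (χ.1 1).re := by rw [le_div_iff₀ hd]; linarith
        simp only [ht, he, if_false, not_true]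
        nlinarith
      · have := hR χ χ.2 (fun e => ht (Subtype.ext e)) he
        have h3 : -μ ≤ (χ.1 g).re / (χ.1 1).re := by rw [le_div_iff₀ hd]; linarith
        simp only [ht, he, if_false, not_false_iff, if_true]
        nlinarith
  rw [cs_re_eq hx]
  refine le_trans ?_ (Finset.sum_le_sum fun χ _ => h2 χ)
  rw [Finset.sum_sub_distrib, Finset.sum_sub_distrib, ← Finset.mul_sum, ← Finset.mul_sum, sum_irr_norm_sq,
    Finset.sum_ite_eq', ← Finset.sum_filter]
  simp only [Finset.mem_univ, if_true]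
  nlinarith

theorem cs_pos {x g : G} (hx : IsConj x x⁻¹) {μ : ℝ} (hμ : 0 ≤ μ)
    (hR : ∀ χ, IsIrrCharacter G χ → (χ ≠ fun _ => 1) → -(μ * (χ 1).re) ≤ (χ g).re)
    (h : μ * (Nat.card (Subgroup.centralizer {x}) - 1) < 1) : 0 < (cs x g).re := by
  have := cs_ge (g := g) hx (fun _ => False) (by simp) hμ le_rfl (fun χ h1 h2 _ => hR χ h1 h2) (by simp)
    (a := Nat.card (Subgroup.centralizer {x})) (by simp [sum_irr_norm_sq])
  linarith

theorem norm_sq_le {χ : G → ℂ} (h : IsIrrCharacter G χ) (g : G) :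
    ‖χ g‖ ^ 2 ≤ Nat.card (Subgroup.centralizer {g}) := by
  rw [← sum_irr_norm_sq]
  exact Finset.single_le_sum (f := fun χ : IrrCharacter G => ‖χ.1 g‖ ^ 2) (fun _ _ => by positivity)
    (Finset.mem_univ ⟨χ, h⟩)

theorem sum_hom_nat {A : Type*} [Group A] [Fintype A] (f : A →* G) {χ : G → ℂ} (h : IsCharacter G χ) :
    ∃ n : ℕ, ∑ a, χ (f a) = n := by
  obtain ⟨n, hn⟩ := classInner_isChar_nat (isChar_comp f h) (isChar_one (G := A))
  have := card_mul_classInner (fun a => χ (f a)) (fun _ : A => (1 : ℂ))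
  simp only [map_one, mul_one, hn] at this
  exact ⟨Nat.card A * n, by rw [← this]; simp⟩

theorem exists_irr_of {f : G → ℂ} (hf : IsClassFunction G f) (h0 : f ≠ 0) :
    ∃ χ, IsIrrCharacter G χ ∧ ∀ (a : G) (l : ℂ), l * conj l = 1 → (∀ g, f (g * a) = l * f g) →
      ∀ g, χ (a * g) = l * χ g := by
  obtain ⟨χ, hχ, hin⟩ := exists_irr_inner_ne_zero hf h0
  refine ⟨χ, hχ, fun a l hl ha g => ?_⟩
  have h1 := isIrr_sum_mul_mul hχ (classFun_conj hf)
  have h2 : (∑ g, conj (f g) * χ g) / χ 1 ≠ 0 := by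
    refine div_ne_zero (fun e => hin ?_) (isIrr_one_ne_zero hχ)
    have := congrArg conj e
    simp only [map_sum, map_mul, Complex.conj_conj, map_zero] at this
    rw [classInner_def, this, mul_zero]
  apply mul_left_cancel₀ h2
  rw [mul_left_comm, ← h1, ← h1, ← Equiv.sum_comp (Equiv.mulRight a) fun k => conj (f k) * χ (k * g),
    Finset.mul_sum]
  refine Finset.sum_congr rfl fun k _ => ?_
  simp only [Equiv.coe_mulRight, ha, map_mul, mul_assoc]
  rw [← mul_assoc l, hl, one_mul]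

theorem card_le_of_param {H : Subgroup G} {ι : Type*} [Finite ι] (f : ι → G) (h : ∀ c ∈ H, ∃ i, c = f i) :
    Nat.card H ≤ Nat.card ι := by
  choose φ hφ using h
  exact Nat.card_le_card_of_injective (fun c : H => φ c c.2) fun c d e =>
    Subtype.ext (by rw [hφ c c.2, hφ d d.2]; exact congrArg f e)

namespace CC

variable {T : Subgroup G} {e : ℕ} (h : CC T e)

include h

theorem const_of {χ : G → ℂ} (hχ : IsClassFunction G χ) {c : ℂ}
    (hc : ∀ θ ∈ np T, classInner χ (indFun T θ.1) = c) :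
    ∃ a, ∀ x ∈ T, x ≠ 1 → χ x = a := by
  classical
  have := Fintype.ofFinite T
  have := h.isMulComm
  refine ⟨classInner χ (indFun T fun _ => 1) - c, fun x hx h1 => ?_⟩
  have h2 := classFun_apply_eq_sum (classFun_res T hχ) ⟨x, hx⟩
  have h3 := sum_irr_one_mul_of_ne (G := T) (g := ⟨x, hx⟩) (by simpa using h1)
  simp only [fun θ : IrrCharacter T => isIrr_degree_one_of_comm θ.2, one_mul] at h3
  have e1 : np T = Finset.univ.erase ⟨fun _ => 1, isIrr_one⟩ := by ext θ; simp [np]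
  rw [← Finset.add_sum_erase _ _ (Finset.mem_univ ⟨fun _ => 1, isIrr_one⟩), ← e1] at h2 h3
  rw [Finset.sum_congr rfl (g := fun θ => c * θ.1 ⟨x, hx⟩) fun θ hθ => by
    rw [← hc θ hθ, inner_indFun_right T _ hχ], ← Finset.mul_sum] at h2
  rw [inner_indFun_right T _ hχ]
  simp only at h2 h3
  linear_combination h2 + c * h3

open Classical in
theorem bessel (E : (G → ℂ) → Prop)
    (hE : ∀ χ, IsIrrCharacter G χ → ¬ E χ → ∃ a, ∀ x ∈ T, x ≠ 1 → χ x = a) {x : G} (hx : x ∈ T) (h1 : x ≠ 1) :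
    (∑ χ : IrrCharacter G with ¬ E χ.1, ‖χ.1 x‖ ^ 2) * (Nat.card T - 1) ≤ e * Nat.card T := by
  let f : G → ℂ := fun g => if g ∈ conjSet T then 1 else 0
  have hf : IsClassFunction G f := fun g k => by
    refine if_congr ⟨fun ⟨a, b, c⟩ => ⟨by simpa using a, b * k, by convert c using 1; group⟩,
      fun ⟨a, b, c⟩ => ⟨by simpa using a, b * k⁻¹, by convert c using 1; group⟩⟩ rfl rfl
  have hT : (Nat.card T : ℂ) ≠ 0 := card_ne_zero
  have he : (e : ℂ) ≠ 0 := fun e0 => card_ne_zero (G := Subgroup.normalizer (T : Set G)) (by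
    rw [h.card, Nat.cast_mul, e0, zero_mul])
  have key : ∀ φ : G → ℂ, IsClassFunction G φ → ∀ a, (∀ x ∈ T, x ≠ 1 → φ x = a) →
      classInner f φ = (Nat.card T - 1) * conj a / (e * Nat.card T) := by
    intro φ hφ a ha
    have h2 := sum_conjSet (hN T) h.hTI (classFun_conj hφ)
    rw [sig_const (c := conj a) fun x hx h1 => by rw [ha x hx h1], h.card, Nat.cast_mul, Finset.sum_filter] at h2
    rw [classInner_def, Finset.sum_congr rfl (g := fun g => if g ∈ conjSet T then conj (φ g) else 0)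
      fun g _ => by simp only [f]; split_ifs <;> simp, eq_div_of_mul_eq (mul_ne_zero he hT) h2]
    have := card_ne_zero (G := G)
    field_simp
  have h2 := classInner_self_re_eq_sum hf
  rw [key f hf 1 fun x hx h1 => if_pos (mem_conjSet hx h1)] at h2
  have h3 : ∑ χ : IrrCharacter G with ¬ E χ.1, ‖χ.1 x‖ ^ 2 * ((Nat.card T - 1) / (e * Nat.card T) : ℝ) ^ 2 ≤
      ∑ χ : IrrCharacter G, ‖classInner f χ‖ ^ 2 := by
    refine le_trans (le_of_eq (Finset.sum_congr rfl fun χ hχ => ?_))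
      (Finset.sum_le_sum_of_subset_of_nonneg (Finset.filter_subset _ _) fun _ _ _ => by positivity)
    obtain ⟨a, ha⟩ := hE χ χ.2 (Finset.mem_filter.mp hχ).2
    rw [key χ (irr_classFun χ) a ha, ha x hx h1,
      show ((Nat.card T : ℂ) - 1) * conj a / (e * Nat.card T) =
        ((Nat.card T - 1) / (e * Nat.card T) : ℝ) * conj a by push_cast; ring, norm_mul, Complex.norm_conj,
      Complex.norm_real, mul_pow, Real.norm_eq_abs, sq_abs, mul_comm]
  rw [← h2, ← Finset.sum_mul, map_one, mul_one, show ((Nat.card T : ℂ) - 1) / (e * Nat.card T) =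
    ((Nat.card T - 1) / (e * Nat.card T) : ℝ) by push_cast; ring, Complex.ofReal_re] at h3
  have h4 : (1 : ℝ) < Nat.card T := by
    have : Nontrivial T := ⟨⟨x, hx⟩, 1, by simpa using h1⟩
    exact_mod_cast Finite.one_lt_card
  have h5 : (0 : ℝ) < e := by exact_mod_cast Nat.pos_of_ne_zero (by exact_mod_cast he)
  have h6 : (0 : ℝ) < (Nat.card T - 1) / (e * Nat.card T) := div_pos (by linarith) (by positivity)
  rw [pow_two, ← mul_assoc, mul_le_iff_le_one_left h6, mul_div_assoc', div_le_one (by positivity)] at h3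
  exact h3

end CC

end Cfsg.Agent.SzC
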