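import Mathlib
import Cfsg.Agent.SzC.Gen
import Cfsg.Agent.Ree.Tori

set_option autoImplicit false
set_option linter.unusedSectionVars false

/-! Characters of a small Ree group induced from a Sylow 3-subgroup. -/

open scoped ComplexConjugate commutatorElement

namespace Cfsg.Agent.SzC.Re

open Cfsg Cfsg.Agent.Char Cfsg.Agent.Char.Ind Cfsg.Agent.RankOne Cfsg.Agent.Ree

theorem exists_psi (F : Type*) [Field F] [Fintype F] [CharP F 3] :
    ∃ ψ : F → ℂ, (∀ a b, ψ (a + b) = ψ a * ψ b) ∧ ψ 0 = 1 ∧ (∃ b, ψ b ≠ 1) ∧ ∀ b, ψ (b ^ 3) = ψ b := by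
  have : Fact (Nat.Prime 3) := ⟨Nat.prime_three⟩
  let _ := ZMod.algebra F 3
  refine ⟨fun b => ZMod.stdAddChar (Algebra.trace (ZMod 3) F b), fun a b => by
    simp only [map_add, AddChar.map_add_eq_mul], by simp, ?_, fun b => ?_⟩
  · obtain ⟨b, hb⟩ := Algebra.trace_surjective (ZMod 3) F 1
    refine ⟨b, ?_⟩
    simp only [hb]
    rw [← (ZMod.stdAddChar (N := 3)).map_zero_eq_one, Ne, ZMod.injective_stdAddChar.eq_iff]
    exact one_ne_zero
  · have := Algebra.trace_eq_of_algEquiv (FiniteField.frobeniusAlgEquivOfAlgebraic (ZMod 3) F) b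
    rw [FiniteField.coe_frobeniusAlgEquivOfAlgebraic, ZMod.card] at this
    simp only [this]

variable {G Ω F : Type*} [Group G] [MulAction G Ω] [Field F] [Fintype F] {m : ℕ} (Z : Model G Ω F m)

local notation "𝐬" => ((3 : ℂ) ^ m)

/-- elements of `U` as elements of the subgroup. -/
abbrev su (x y z : F) : Z.U := ⟨Z.S x y z, Z.S_mem x y z⟩

/-- the parametrisation of `U`. -/
noncomputable def equivU : F × F × F ≃ Z.U :=
  Equiv.ofBijective (fun p => su Z p.1 p.2.1 p.2.2)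
    ⟨fun p r h => by
      obtain ⟨h1, h2, h3⟩ := Z.S_inj (congrArg Subtype.val h)
      exact Prod.ext h1 (Prod.ext h2 h3),
     fun g => by
      obtain ⟨x, y, z, h⟩ := g.2
      exact ⟨(x, y, z), Subtype.ext h.symm⟩⟩

theorem symm_su (x y z : F) : (equivU Z).symm (su Z x y z) = (x, y, z) := (equivU Z).symm_apply_apply (x, y, z)

theorem exists_su (g : Z.U) : ∃ x y z, g = su Z x y z := by
  obtain ⟨x, y, z, h⟩ := g.2
  exact ⟨x, y, z, Subtype.ext h⟩

theorem sum_U (f : Z.U → ℂ) [Fintype Z.U] : ∑ g, f g = ∑ x, ∑ y, ∑ z, f (su Z x y z) := by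
  rw [← (equivU Z).sum_comp, Fintype.sum_prod_type]
  exact Finset.sum_congr rfl fun x _ => Fintype.sum_prod_type _

theorem su_mul (x y z x' y' z' : F) : su Z x y z * su Z x' y' z' =
    su Z (x + x') (y + y' - Z.σ x' * x) (z + z' + Z.σ x' * x * x' - Z.σ x' * x ^ 2 - x' * y) :=
  Subtype.ext (Z.S_mul _ _ _ _ _ _)

theorem conj_S (u v w x y z : F) :
    ∃ z', Z.S u v w * Z.S x y z * (Z.S u v w)⁻¹ = Z.S x (y + (Z.σ u * x - Z.σ x * u)) z' := by
  rw [Z.S_inv, Z.S_mul, Z.S_mul]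
  exact ⟨_, Z.S_eq_iff.mpr ⟨by ring, by rw [map_neg]; ring, rfl⟩⟩

theorem conj_S_center (u v w z : F) : Z.S u v w * Z.S 0 0 z * (Z.S u v w)⁻¹ = Z.S 0 0 z := by
  rw [mul_inv_eq_iff_eq_mul, Z.S_mul, Z.S_mul]
  exact Z.S_eq_iff.mpr ⟨by ring, by simp, by simp [add_comm]⟩

theorem conj_S1 (v x y z : F) : Z.S 0 v 0 * Z.S x y z * (Z.S 0 v 0)⁻¹ = Z.S 0 0 (-(x * v)) * Z.S x y z := by
  rw [mul_inv_eq_iff_eq_mul, Z.S_mul, Z.S_mul, Z.S_mul]
  exact Z.S_eq_iff.mpr ⟨by ring, by simp [add_comm], by simp; ring⟩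

theorem conj_S2 (u y z : F) : Z.S u 0 0 * Z.S 0 y z * (Z.S u 0 0)⁻¹ = Z.S 0 0 (u * y) * Z.S 0 y z := by
  rw [mul_inv_eq_iff_eq_mul, Z.S_mul, Z.S_mul, Z.S_mul]
  exact Z.S_eq_iff.mpr ⟨by ring, by simp, by simp⟩

include Z in
theorem cast_q : (Fintype.card F : ℂ) = 3 * 𝐬 ^ 2 := by
  rw [Z.card_F]; push_cast; ring

include Z in
theorem cast_q_sub : ((Fintype.card F - 1 : ℕ) : ℂ) = 3 * 𝐬 ^ 2 - 1 := by
  rw [Nat.cast_sub Fintype.card_pos, cast_q Z, Nat.cast_one]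

section psi

variable {ψ : F → ℂ} (h1 : ∀ a b, ψ (a + b) = ψ a * ψ b) (h2 : ψ 0 = 1) {b : F} (h3 : ψ b ≠ 1)
  (h4 : ∀ b, ψ (b ^ 3) = ψ b)

include h1 h3 in
theorem psi_sum_units [DecidableEq F] (h2 : ψ 0 = 1) (φ : F → F) (hφ : Function.Injective φ) (h0 : φ 0 = 0) :
    ∑ κ : Fˣ, ψ (φ κ) = -1 := by
  have e0 := Equiv.sum_comp (Equiv.addRight b) ψ
  simp only [Equiv.coe_addRight, h1, ← Finset.sum_mul] at e0
  have e0' : ∑ c, ψ c = 0 := by
    by_contra h
    exact h3 (mul_left_cancel₀ h (e0.trans (mul_one _).symm))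
  have e1 := (Finite.injective_iff_bijective.mp hφ).sum_comp ψ
  rw [e0', ← Finset.add_sum_erase _ _ (Finset.mem_univ 0), h0, h2] at e1
  have e2 : ∑ κ : Fˣ, ψ (φ κ) = ∑ x ∈ Finset.univ.erase 0, ψ (φ x) := by
    refine Finset.sum_bij (fun κ _ => (κ : F)) (by simp) (fun _ _ _ _ h => Units.ext h) ?_ (by simp)
    intro b hb
    exact ⟨Units.mk0 b (by simpa using hb), Finset.mem_univ _, rfl⟩
  rw [e2]; linear_combination e1

include Z h1 h2 in
theorem psi_cube (c : F) : ψ c ^ 3 = 1 := by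
  rw [← h2, show (0 : F) = c + c + c by linear_combination -c * Z.three, h1, h1]; ring

include Z h1 h2 in
theorem psi_conj (c : F) : conj (ψ c) = ψ (-c) := by
  rw [conj_eq_inv_of_pow_eq_one (by norm_num) (psi_cube Z h1 h2 c)]
  exact inv_eq_of_mul_eq_one_right (by rw [← h1, add_neg_cancel, h2])

include Z h1 h2 in
theorem psi_mul_conj (c : F) : ψ c * conj (ψ c) = 1 := by
  rw [psi_conj Z h1 h2, ← h1, add_neg_cancel, h2]

include Z h1 h2 h3 in
theorem psi_three : 1 + ψ b + ψ (-b) = 0 := by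
  have e1 := psi_cube Z h1 h2 b
  rw [show -b = b + b by linear_combination -b * Z.three, h1]
  apply mul_left_cancel₀ (sub_ne_zero.mpr h3)
  linear_combination e1

include h1 h4 in
theorem psi_comm (x : F) : ∃ t : F, Z.σ t = x ∧ ∀ u, ψ (Z.σ u * x - Z.σ x * u) = ψ (u * (t - t ^ 3)) := by
  have e0 : ∀ (n : ℕ) (c : F), ψ (c ^ 3 ^ n) = ψ c := fun n c => by
    induction n with
    | zero => simp
    | succ n ih => rw [pow_succ, pow_mul, h4, ih]
  have e1 : (x ^ 3 ^ m) ^ 3 = Z.σ x := by rw [Z.σ_apply, ← pow_mul, ← pow_succ]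
  have e2 : Z.σ (x ^ 3 ^ m) = x := by
    rw [Z.σ_apply, ← pow_mul, ← pow_add, show m + (m + 1) = 2 * m + 1 by ring, ← Z.card_F,
      FiniteField.pow_card]
  refine ⟨x ^ 3 ^ m, e2, fun u => ?_⟩
  have e3 : Z.σ u * x = (u * x ^ 3 ^ m) ^ 3 ^ (m + 1) := by rw [← Z.σ_apply, map_mul, e2]
  rw [sub_eq_add_neg, h1, e3, e0, ← h1, e1]
  congr 1; ring

include h1 h2 h3 in
theorem exists_chi3 [Finite G] [DecidableEq F] : IsCharacter Z.U fun g =>
    if ((equivU Z).symm g).1 = 0 ∧ ((equivU Z).symm g).2.1 = 0 then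
      3 * 𝐬 ^ 2 * ψ ((equivU Z).symm g).2.2 else 0 := by
  classical
  have := Fintype.ofFinite Z.U
  let f : Z.U → ℂ := fun g => if ((equivU Z).symm g).1 = 0 ∧ ((equivU Z).symm g).2.1 = 0 then
      ψ ((equivU Z).symm g).2.2 else 0
  have hf : ∀ x y z, f (su Z x y z) = if x = 0 ∧ y = 0 then ψ z else 0 := fun x y z => by simp only [f, symm_su]
  obtain ⟨χ, hχ, hl⟩ := exists_irr_of (f := f) (fun g k => by
    obtain ⟨x, y, z, rfl⟩ := exists_su Z g
    obtain ⟨u, v, w, rfl⟩ := exists_su Z k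
    by_cases hx : x = 0 ∧ y = 0
    · obtain ⟨rfl, rfl⟩ := hx
      exact congrArg f (Subtype.ext (conj_S_center Z u v w z))
    · obtain ⟨z', e⟩ := conj_S Z u v w x y z
      rw [show su Z u v w * su Z x y z * (su Z u v w)⁻¹ = su Z x _ z' from Subtype.ext e, hf, hf, if_neg hx,
        if_neg]
      rintro ⟨rfl, e2⟩
      exact hx ⟨rfl, by simpa using e2⟩) (fun e => by
    have := congrFun e (su Z 0 0 0)
    simp [hf, h2] at this)
  have a0 : ∀ z g, χ (su Z 0 0 z * g) = ψ z * χ g := fun z => hl _ _ (psi_mul_conj Z h1 h2 z) fun g => by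
    obtain ⟨x, y, w, rfl⟩ := exists_su Z g
    rw [su_mul, hf, hf]
    simp [h1, mul_comm]
  obtain ⟨d, -, hd⟩ := isIrr_degree hχ
  have a1 : ∀ z, χ (su Z 0 0 z) = ψ z * d := fun z => by rw [← hd, ← a0, mul_one]
  have a2 : ∀ x y z, ¬ (x = 0 ∧ y = 0) → χ (su Z x y z) = 0 := by
    intro x y z hx
    by_contra h0
    apply h3
    by_cases hx0 : x = 0
    · subst hx0
      have hy : y ≠ 0 := by simpa using hx
      have e1 := isIrr_classFun hχ (su Z 0 y z) (su Z (b / y) 0 0)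
      rw [show su Z (b / y) 0 0 * su Z 0 y z * (su Z (b / y) 0 0)⁻¹ = su Z 0 0 (b / y * y) * su Z 0 y z from
        Subtype.ext (conj_S2 Z _ _ _), a0, div_mul_cancel₀ _ hy] at e1
      exact mul_right_cancel₀ h0 (e1.trans (one_mul _).symm)
    · have e1 := isIrr_classFun hχ (su Z x y z) (su Z 0 (-b / x) 0)
      rw [show su Z 0 (-b / x) 0 * su Z x y z * (su Z 0 (-b / x) 0)⁻¹ = su Z 0 0 (-(x * (-b / x))) * su Z x y z
        from Subtype.ext (conj_S1 Z _ _ _ _), a0, mul_div_cancel₀ _ hx0, neg_neg] at e1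
      exact mul_right_cancel₀ h0 (e1.trans (one_mul _).symm)
  have a4 : d = Fintype.card F := by
    have e1 := card_mul_classInner χ χ
    rw [classInner_isIrr_self hχ, mul_one, sum_U, Finset.sum_eq_single 0, Finset.sum_eq_single 0,
      Finset.sum_congr rfl (g := fun _ => (d : ℂ) ^ 2), Finset.sum_const, Finset.card_univ, Z.card_U,
      nsmul_eq_mul] at e1
    · have e2 : Fintype.card F ^ 3 = Fintype.card F * d ^ 2 := by exact_mod_cast e1
      refine Nat.pow_left_injective two_ne_zero (Nat.eq_of_mul_eq_mul_left (Fintype.card_pos (α := F)) ?_)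
      simp only [← e2]; ring
    · intro z _
      rw [a1, map_mul, map_natCast]
      linear_combination (d : ℂ) ^ 2 * psi_mul_conj Z h1 h2 z
    · exact fun y _ hy => Finset.sum_eq_zero fun z _ => by rw [a2 _ _ _ (by simp [hy]), zero_mul]
    · simp
    · exact fun x _ hx => Finset.sum_eq_zero fun y _ => Finset.sum_eq_zero fun z _ => by
        rw [a2 _ _ _ (by simp [hx]), zero_mul]
    · simp
  convert isIrr_isChar hχ using 1
  ext g
  obtain ⟨x, y, z, rfl⟩ := exists_su Z g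
  simp only [symm_su]
  split_ifs with hx
  · obtain ⟨rfl, rfl⟩ := hx
    rw [a1, a4, cast_q Z, mul_comm]
  · rw [a2 x y z hx]

include h1 h2 h3 h4 in
theorem exists_chi2 [Finite G] : ∃ χ : Z.U → ℂ, IsCharacter Z.U χ ∧ (∀ y z, χ (su Z 0 y z) = 𝐬 * ψ y) ∧
    ∀ x y z, x ≠ 0 → x ≠ 1 → x ≠ -1 → χ (su Z x y z) = 0 := by
  classical
  have := Fintype.ofFinite Z.U
  let f : Z.U → ℂ := fun g => if ((equivU Z).symm g).1 = 0 then ψ ((equivU Z).symm g).2.1 else 0
  have hf : ∀ x y z, f (su Z x y z) = if x = 0 then ψ y else 0 := fun x y z => by simp only [f, symm_su]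
  obtain ⟨χ, hχ, hl⟩ := exists_irr_of (f := f) (fun g k => by
    obtain ⟨x, y, z, rfl⟩ := exists_su Z g
    obtain ⟨u, v, w, rfl⟩ := exists_su Z k
    obtain ⟨z', e⟩ := conj_S Z u v w x y z
    rw [show su Z u v w * su Z x y z * (su Z u v w)⁻¹ = su Z x _ z' from Subtype.ext e, hf, hf]
    split_ifs with hx
    · simp [hx]
    · rfl) (fun e => by
    have := congrFun e (su Z 0 0 0)
    simp [hf, h2] at this)
  have a0 : ∀ y z g, χ (su Z 0 y z * g) = ψ y * χ g := fun y z => hl _ _ (psi_mul_conj Z h1 h2 y) fun g => by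
    obtain ⟨x, v, w, rfl⟩ := exists_su Z g
    rw [su_mul, hf, hf]
    simp [h1, mul_comm]
  obtain ⟨d, hd0, hd⟩ := isIrr_degree hχ
  have a1 : ∀ y z, χ (su Z 0 y z) = ψ y * d := fun y z => by rw [← hd, ← a0, mul_one]
  have a5 : ∀ u v w x y z, ∃ z', su Z u v w * su Z x y z * (su Z u v w)⁻¹ =
      su Z 0 (Z.σ u * x - Z.σ x * u) z' * su Z x y z := by
    intro u v w x y z
    obtain ⟨z', e⟩ := conj_S Z u v w x y z
    refine ⟨z' - z + x * (Z.σ u * x - Z.σ x * u), Subtype.ext (e.trans ?_)⟩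
    change _ = Z.S _ _ _ * Z.S _ _ _
    rw [Z.S_mul]
    exact Z.S_eq_iff.mpr ⟨by ring, by ring, by ring⟩
  have a2 : ∀ x y z, x ≠ 0 → x ≠ 1 → x ≠ -1 → χ (su Z x y z) = 0 := by
    intro x y z hx0 hx1 hx2
    obtain ⟨t, rfl, ht⟩ := psi_comm Z h1 h4 x
    have e0 : t - t ^ 3 ≠ 0 := by
      rw [show t - t ^ 3 = t * ((1 - t) * (1 + t)) by ring]
      refine mul_ne_zero (fun e => hx0 (by simp [e])) (mul_ne_zero (fun e => hx1 ?_) fun e => hx2 ?_)
      · rw [← sub_eq_zero.mp e, map_one]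
      · rw [eq_neg_of_add_eq_zero_right e, map_neg, map_one]
    obtain ⟨z', e⟩ := a5 (b / (t - t ^ 3)) 0 0 (Z.σ t) y z
    have e1 := isIrr_classFun hχ (su Z (Z.σ t) y z) (su Z (b / (t - t ^ 3)) 0 0)
    rw [e, a0, ht, div_mul_cancel₀ _ e0] at e1
    by_contra h0
    exact h3 (mul_right_cancel₀ h0 (e1.trans (one_mul _).symm))
  have a3 : ∀ x y z, x = 0 ∨ x = 1 ∨ x = -1 → χ (su Z x y z) * conj (χ (su Z x y z)) = d ^ 2 := by
    intro x y z hx
    have e1 : su Z x y z ∈ charCenter χ := by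
      refine mem_charCenter_of_commutator hχ fun g => ?_
      obtain ⟨u, v, w, rfl⟩ := exists_su Z g
      obtain ⟨z', e⟩ := a5 u v w x y z
      obtain ⟨t, e2, ht⟩ := psi_comm Z h1 h4 x
      have e3 : t - t ^ 3 = 0 := Z.σ.injective (by
        rw [map_sub, map_pow, e2, map_zero]
        rcases hx with rfl | rfl | rfl <;> ring)
      rw [commutatorElement_def, e, mul_inv_cancel_right, mem_charKer_iff (isIrr_isChar hχ), a1, ht, e3,
        mul_zero, h2, one_mul, hd]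
    rw [mem_charCenter_iff (isIrr_isChar hχ), hd, Complex.norm_natCast] at e1
    rw [Complex.mul_conj, Complex.normSq_eq_norm_sq, e1]
    simp
  have a4 : d = 3 ^ m := by
    have e1 := card_mul_classInner χ χ
    have n1 : (1 : F) ≠ -1 := fun e => Z.two_ne (by linear_combination e)
    rw [classInner_isIrr_self hχ, mul_one, sum_U, ← Finset.sum_subset (Finset.subset_univ {0, 1, -1}),
      Finset.sum_congr rfl (g := fun _ => (Fintype.card F : ℂ) * (Fintype.card F * d ^ 2)), Finset.sum_const,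
      Finset.card_eq_three.mpr ⟨0, 1, -1, zero_ne_one, by simp, n1, rfl⟩, Z.card_U, nsmul_eq_mul] at e1
    · have e2 : Fintype.card F ^ 3 = 3 * (Fintype.card F * (Fintype.card F * d ^ 2)) := by exact_mod_cast e1
      refine Nat.pow_left_injective two_ne_zero
        (Nat.eq_of_mul_eq_mul_left (show 0 < 3 * Fintype.card F ^ 2 by have := Fintype.card_pos (α := F); positivity) ?_)
      calc _ = 3 * (Fintype.card F * (Fintype.card F * d ^ 2)) := by ring
        _ = _ := by rw [← e2, pow_succ (Fintype.card F) 2]; nth_rw 2 [Z.card_F]; ring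
    · intro x hx
      simp only [a3 x _ _ (by simpa using hx), Finset.sum_const, Finset.card_univ, nsmul_eq_mul]
    · intro x _ hx
      simp only [Finset.mem_insert, Finset.mem_singleton, not_or] at hx
      simp only [a2 x _ _ hx.1 hx.2.1 hx.2.2, zero_mul, Finset.sum_const_zero]
  exact ⟨χ, isIrr_isChar hχ, fun y z => by rw [a1, a4, mul_comm]; simp, a2⟩

end psi

variable [Fintype G]

theorem hTI_U : ∀ g x : G, x ∈ Z.U → x ≠ 1 → g * x * g⁻¹ ∈ Z.U → g ∈ Z.B :=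
  fun _ _ hx h1 h => Z.mem_B_of_conj hx h1 (Z.U_le_B h)

theorem ind_U [DecidableEq F] {θ : Z.U → ℂ} (hθ : IsClassFunction Z.U θ) {x y z : F} (h : Z.S x y z ≠ 1) :
    indFun Z.U θ (Z.S x y z) = ∑ κ : Fˣ, θ (su Z (κ * x) (κ * Z.σ κ * y) (κ ^ 2 * Z.σ κ * z)) := by
  classical
  rw [ind_apply (N := Z.B) (hTI_U Z) θ (Z.S_mem x y z) h]
  have := Fintype.ofFinite Z.U
  have e1 : ∀ i : DecidablePred fun n => n ∈ Z.B,
      ∑ n ∈ @Finset.filter _ _ i Finset.univ, extendByZero Z.U θ (n * Z.S x y z * n⁻¹) =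
      ∑ p : Z.U × Fˣ, θ (su Z (p.2 * x) (p.2 * Z.σ p.2 * y) (p.2 ^ 2 * Z.σ p.2 * z)) := by
    intro i
    symm
    refine Finset.sum_bij (fun p _ => p.1 * Z.M p.2) ?_ ?_ ?_ ?_
    · intro p _
      simpa using Z.B.mul_mem (Z.U_le_B p.1.2) (Z.H_le_B (Z.M_mem _))
    · intro p _ r _ h
      obtain ⟨h1, h2⟩ := Z.S_M_inj p.1.2 r.1.2 h
      exact Prod.ext (Subtype.ext h1) h2
    · intro g hg
      obtain ⟨u, v, w, κ, rfl⟩ := (Z.stab g).mp (by simpa using hg)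
      exact ⟨(su Z u v w, κ), Finset.mem_univ _, rfl⟩
    · rintro ⟨u, κ⟩ _
      have e2 : u * Z.M κ * Z.S x y z * (u * Z.M κ)⁻¹ =
          ((u * su Z (κ * x) (κ * Z.σ κ * y) (κ ^ 2 * Z.σ κ * z) * u⁻¹ : Z.U) : G) := by
        change _ = (u : G) * Z.S _ _ _ * (u : G)⁻¹
        rw [← Z.M_S]; group
      simp only
      rw [e2, extendByZero_of_mem _ _ (Subtype.prop _), hθ]
  rw [e1, Fintype.sum_prod_type]
  dsimp only
  rw [Finset.sum_const, Finset.card_univ, ← Nat.card_eq_fintype_card, nsmul_eq_mul, ← mul_assoc,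
    inv_mul_cancel₀ card_ne_zero, one_mul]

omit [Fintype G] in
theorem exists_sign : ∃ φ : F → F, Function.Injective φ ∧ φ 0 = 0 ∧
    ∀ κ, κ ≠ 0 → φ κ = κ * Z.σ κ ∨ φ κ = -(κ * Z.σ κ) := by
  have hq := Z.q_mod
  have hc : ringChar F ≠ 2 := by
    have := Z.charP
    rw [ringChar.eq F 3]; norm_num
  have e1 : ∀ κ : F, κ ≠ 0 → κ ^ (Fintype.card F / 2) * (κ * Z.σ κ) = κ * Z.σ κ ∨
      κ ^ (Fintype.card F / 2) * (κ * Z.σ κ) = -(κ * Z.σ κ) := fun κ hκ => by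
    rcases FiniteField.pow_dichotomy hc hκ with e | e <;> simp [e]
  refine ⟨fun κ => κ ^ (Fintype.card F / 2) * (κ * Z.σ κ), fun κ l h => ?_, by simp, e1⟩
  simp only at h
  by_cases hl : l = 0
  · subst hl
    by_contra hκ
    simp [hκ] at h
  obtain ⟨u, rfl⟩ : ∃ u, κ = u * l := ⟨κ / l, by field_simp⟩
  have e2 : u ^ (Fintype.card F / 2) * (u * Z.σ u) = 1 := by
    apply mul_right_cancel₀ (show l ^ (Fintype.card F / 2) * (l * Z.σ l) ≠ 0 by simp [hl])
    rw [mul_pow, map_mul] at h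
    linear_combination h
  have hu : u ≠ 0 := by rintro rfl; simp at e2
  have e3 : u * Z.σ u = 1 := by
    rcases e1 u hu with e | e
    · rw [← e, e2]
    · obtain ⟨r, hr⟩ := Z.exists_sq_eq u
      exact absurd (by linear_combination hr + e - e2) (Z.sq_ne_neg_one r)
  rcases Z.of_mul_σ e3 with rfl | rfl
  · simp
  · rw [e3, mul_one, Odd.neg_one_pow (Nat.odd_iff.mpr (by omega))] at e2
    exact absurd (by linear_combination -e2) Z.two_ne

theorem exists_Psi (c k : ℤ) : ∃ Ψ : G → ℂ, IsGeneralizedCharacter G Ψ ∧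
    Ψ 1 = (3 * 𝐬 ^ 2 - 1) * ((3 * 𝐬 ^ 2) ^ 3 + 1) * (1 + 6 * 𝐬 * c + 3 * 𝐬 ^ 2 * k) ∧
    (∀ z, z ≠ 0 → Ψ (Z.S 0 0 z) = (3 * 𝐬 ^ 2 - 1) * (1 + 6 * 𝐬 * c) - 3 * 𝐬 ^ 2 * k) ∧
    (∀ y z, y ≠ 0 → Ψ (Z.S 0 y z) = 3 * 𝐬 ^ 2 - 1 - 6 * 𝐬 * c) ∧ (∀ x y z, x ≠ 0 → Ψ (Z.S x y z) = -1) ∧
    ∀ g, g ≠ 1 → g ∉ conjSet Z.U → Ψ g = 0 := by
  classical
  have := Z.charP
  obtain ⟨ψ, h1, h2, ⟨b, h3⟩, h4⟩ := exists_psi F
  obtain ⟨χ, hχ, a1, a2⟩ := exists_chi2 Z h1 h2 h3 h4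
  have h5 := exists_chi3 Z h1 h2 h3
  have hb : b ≠ 0 := fun e => h3 (e ▸ h2)
  let ν : Z.U →* ℂ :=
    { toFun := fun g => ψ (b * ((equivU Z).symm g).1)
      map_one' := by
        have : (1 : Z.U) = su Z 0 0 0 := Subtype.ext Z.S_zero.symm
        rw [this, symm_su, mul_zero, h2]
      map_mul' := by
        intro g k
        obtain ⟨x, y, z, rfl⟩ := exists_su Z g
        obtain ⟨u, v, w, rfl⟩ := exists_su Z k
        rw [su_mul, symm_su, symm_su, symm_su, mul_add, h1] }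
  have hν : IsCharacter Z.U ν := isChar_linear ν.toHomUnits
  have hν' : ∀ x y z, ν (su Z x y z) = ψ (b * x) := fun x y z => by
    change ψ (b * ((equivU Z).symm (su Z x y z)).1) = _
    rw [symm_su]
  have h6 := isChar_mul hχ (isChar_add (isChar_add isChar_one' hν) (isChar_conj hν))
  have h7 := isGenChar_add (isGenChar_add (isChar_isGenChar hν) (isGenChar_intCast_smul c
    (isChar_isGenChar (isChar_add h6 (isChar_conj h6))))) (isGenChar_intCast_smul k (isChar_isGenChar h5))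
  obtain ⟨θ, hθ, e⟩ : ∃ θ : Z.U → ℂ, IsGeneralizedCharacter Z.U θ ∧ ∀ x y z, θ (su Z x y z) = ψ (b * x) +
      c * (if x = 0 then 3 * 𝐬 * (ψ y + ψ (-y)) else 0) + k * (if x = 0 ∧ y = 0 then 3 * 𝐬 ^ 2 * ψ z else 0) := by
    refine ⟨_, h7, fun x y z => ?_⟩
    simp only [Pi.add_apply, Pi.smul_apply, Pi.mul_apply, Pi.one_apply, smul_eq_mul, symm_su, hν',
      psi_conj Z h1 h2]
    congr 3
    by_cases hx : x = 0
    · subst hx
      simp only [mul_zero, neg_zero, h2, a1, map_mul, map_add, map_one, map_pow, map_ofNat, psi_conj Z h1 h2,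
        if_true]
      ring
    · rw [if_neg hx]
      by_cases hx1 : x = 1
      · rw [hx1, mul_one, psi_three Z h1 h2 h3]; simp
      by_cases hx2 : x = -1
      · rw [hx2, mul_neg_one, neg_neg, add_right_comm, psi_three Z h1 h2 h3]; simp
      rw [a2 x y z hx hx1 hx2]; simp
  have hc := isGenChar_classFun hθ
  have cu : ((Finset.univ : Finset Fˣ).card : ℂ) = 3 * 𝐬 ^ 2 - 1 := by
    rw [Finset.card_univ, Fintype.card_units, cast_q_sub Z]
  refine ⟨indFun Z.U θ, IndRep.isGenChar_indFun _ hθ, ?_, fun z hz => ?_, fun y z hy => ?_, fun x y z hx => ?_,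
    fun g h1 hg => ind_zero' _ h1 hg⟩
  · rw [indFun_one, show (1 : Z.U) = su Z 0 0 0 from Subtype.ext Z.S_zero.symm, e, Z.index_U, Nat.cast_mul,
      cast_q_sub Z]
    push_cast
    simp only [cast_q Z, mul_zero, neg_zero, h2, if_true, and_self]
    ring
  · rw [ind_U Z hc (by simp [Z.S_eq_one_iff, hz])]
    simp only [e, mul_zero, neg_zero, h2, if_true, and_self, Finset.sum_add_distrib, Finset.sum_const,
      nsmul_eq_mul, cu, ← Finset.mul_sum]
    rw [psi_sum_units h1 h3 h2 (fun κ => κ ^ 2 * Z.σ κ * z) (fun κ l e => ?_) (by simp)]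
    · ring
    · have e1 : κ ^ 2 * Z.σ κ = l ^ 2 * Z.σ l := mul_right_cancel₀ hz e
      by_cases hl : l = 0
      · simpa [hl] using e1
      · have := Z.of_sq_mul_σ (x := κ / l) (by
          rw [map_div₀, div_pow, div_mul_div_comm, e1, div_self (by simp [hl])])
        exact (div_eq_one_iff_eq hl).mp this
  · rw [ind_U Z hc (by simp [Z.S_eq_one_iff, hy])]
    obtain ⟨φ, hφ, φ0, hφ'⟩ := exists_sign Z
    have e1 : ∀ κ : Fˣ, ψ (κ * Z.σ κ * y) + ψ (-(κ * Z.σ κ * y)) = ψ (φ κ * y) + ψ (-(φ κ * y)) := fun κ => by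
      rcases hφ' κ κ.ne_zero with e | e <;> simp [e, add_comm]
    have e2 : ∀ κ : Fˣ, (κ : F) * Z.σ κ * y ≠ 0 := fun κ => by simp [hy]
    simp only [e, mul_zero, h2, if_true, e2, and_false, if_false, e1, Finset.sum_add_distrib, Finset.sum_const,
      nsmul_eq_mul, cu, ← Finset.mul_sum]
    rw [psi_sum_units h1 h3 h2 (fun κ => φ κ * y) (fun κ l e => hφ (mul_right_cancel₀ hy e)) (by simp [φ0]),
      psi_sum_units h1 h3 h2 (fun κ => -(φ κ * y)) (fun κ l e => hφ (mul_right_cancel₀ hy (neg_inj.mp e)))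
        (by simp [φ0])]
    ring
  · rw [ind_U Z hc (by simp [Z.S_eq_one_iff, hx])]
    have e2 : ∀ κ : Fˣ, (κ : F) * x ≠ 0 := fun κ => by simp [hx]
    simp only [e, e2, false_and, if_false, mul_zero, add_zero]
    exact psi_sum_units h1 h3 h2 (fun κ => b * (κ * x))
      (fun κ l e => mul_right_cancel₀ hx (mul_left_cancel₀ hb e)) (by simp)

theorem sig_U {f : G → ℂ} {a b c : ℂ} (ha : ∀ z, z ≠ 0 → f (Z.S 0 0 z) = a)
    (hb : ∀ y z, y ≠ 0 → f (Z.S 0 y z) = b) (hc : ∀ x y z, x ≠ 0 → f (Z.S x y z) = c) :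
    sig Z.U f = (3 * 𝐬 ^ 2 - 1) * (a + 3 * 𝐬 ^ 2 * b + (3 * 𝐬 ^ 2) ^ 2 * c) := by
  classical
  have := Fintype.ofFinite Z.U
  have e0 : ((Finset.univ.erase (0 : F)).card : ℂ) = 3 * 𝐬 ^ 2 - 1 := by
    rw [Finset.card_erase_of_mem (Finset.mem_univ _), Finset.card_univ, cast_q_sub Z]
  have e1 : ∀ (g : F → ℂ) (d : ℂ), (∀ x, x ≠ 0 → g x = d) → ∑ x, g x = g 0 + (3 * 𝐬 ^ 2 - 1) * d := fun g d h => by
    rw [← Finset.add_sum_erase _ _ (Finset.mem_univ 0), Finset.sum_congr rfl fun x hx => h x (by simpa using hx),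
      Finset.sum_const, nsmul_eq_mul, e0]
  rw [sig_eq, sum_U, e1 _ ((3 * 𝐬 ^ 2) ^ 2 * c), e1 _ (3 * 𝐬 ^ 2 * b), e1 _ a ha, Z.S_zero]
  · ring
  · intro y hy
    simp only [hb y _ hy, Finset.sum_const, Finset.card_univ, nsmul_eq_mul, cast_q Z]
  · intro x hx
    simp only [hc x _ _ hx, Finset.sum_const, Finset.card_univ, nsmul_eq_mul, cast_q Z]
    ring

end Cfsg.Agent.SzC.Re
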