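import Mathlib
import Cfsg.Agent.SzC.ReeU
import Cfsg.Agent.Chev.MinRee
import Cfsg.Agent.GL2.Cent
import Cfsg.Agent.Char.Indicator

set_option autoImplicit false
set_option linter.unusedSectionVars false

/-! Character ratios and centraliser orders in a small Ree group. -/

open scoped ComplexConjugate MatrixGroups

namespace Cfsg.Agent.SzC.Re

open Cfsg Cfsg.Agent.Char Cfsg.Agent.Char.Ind Cfsg.Agent.RankOne Cfsg.Agent.Ree

variable {G Ω F : Type*} [Group G] [MulAction G Ω] [Field F] [Fintype F] {m : ℕ} (Z : Model G Ω F m)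
  [Fintype G]

local notation "𝐬" => ((3 : ℂ) ^ m)
local notation "𝐭" => ((3 : ℝ) ^ m)
local notation "𝐪" => Fintype.card F
local notation "𝐂" g => Subgroup.centralizer ({g} : Set G)

include Z in
theorem real_q : (𝐪 : ℝ) = 3 * 𝐭 ^ 2 := by
  rw [Z.card_F]; push_cast; ring

include Z in
theorem min_deg (hm : 1 ≤ m) {χ : G → ℂ} (h : IsIrrCharacter G χ) (h1 : χ ≠ fun _ => 1) :
    9 * 𝐭 ^ 4 - 3 * 𝐭 ^ 2 + 1 ≤ (χ 1).re := by
  have h' := h
  obtain ⟨n, ρ, -, rfl⟩ := h'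
  have h2 := Chev.ree_min_degree Z hm ρ (by
    by_contra hc
    push Not at hc
    refine h1 (isIrr_eq_one_of_charKer_eq_top h ?_)
    rw [charKer_character, eq_top_iff]
    exact fun g _ => hc g)
  have h3 : ((𝐪 ^ 2 - 𝐪 + 1 : ℕ) : ℝ) ≤ (Module.finrank ℂ (Fin n → ℂ) : ℝ) := by exact_mod_cast h2
  rw [Nat.cast_add, Nat.cast_sub (Nat.le_self_pow two_ne_zero _), Nat.cast_pow, real_q Z] at h3
  rw [Representation.char_one, Complex.natCast_re]
  push_cast at h3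
  linarith

theorem sum_erase_const (g : F → ℂ) (d : ℂ) (h : ∀ x, x ≠ 0 → g x = d) : ∑ x, g x = g 0 + (𝐪 - 1) * d := by
  classical
  rw [← Finset.add_sum_erase _ _ (Finset.mem_univ 0), Finset.sum_congr rfl fun x hx => h x (by simpa using hx),
    Finset.sum_const, nsmul_eq_mul, Finset.card_erase_of_mem (Finset.mem_univ _), Finset.card_univ,
    Nat.cast_sub Fintype.card_pos, Nat.cast_one]

theorem X_eq {χ : G → ℂ} (h : IsClassFunction G χ) {z z' : F} (hz : z ≠ 0) (hz' : z' ≠ 0) :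
    χ (Z.S 0 0 z') = χ (Z.S 0 0 z) := by
  obtain ⟨κ, hκ⟩ := (Finite.injective_iff_surjective (f := fun κ : F => κ ^ 2 * Z.σ κ * z)).mp (fun κ l e => by
    have e1 : κ ^ 2 * Z.σ κ = l ^ 2 * Z.σ l := mul_right_cancel₀ hz e
    by_cases hl : l = 0
    · simpa [hl] using e1
    · have := Z.of_sq_mul_σ (x := κ / l) (by
        rw [map_div₀, div_pow, div_mul_div_comm, e1, div_self (by simp [hl])])
      exact (div_eq_one_iff_eq hl).mp this) z'
  have h0 : κ ≠ 0 := by rintro rfl; simp [hz'.symm] at hκ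
  rw [← h (Z.S 0 0 z) (Z.M (Units.mk0 κ h0)), Z.M_S, ← hκ]
  simp

theorem sum_X {χ : G → ℂ} (h : IsCharacter G χ) {z : F} (hz : z ≠ 0) :
    ∃ n : ℕ, χ 1 + (𝐪 - 1) * χ (Z.S 0 0 z) = n := by
  let f : Multiplicative F →* G :=
    { toFun := fun a => Z.S 0 0 a.toAdd
      map_one' := Z.S_zero
      map_mul' := fun a b => by rw [Z.S_mul]; simp }
  obtain ⟨n, hn⟩ := sum_hom_nat f h
  refine ⟨n, ?_⟩
  rw [← hn, ← Z.S_zero, ← sum_erase_const (fun z => χ (Z.S 0 0 z)) _ fun x hx => X_eq Z (isChar_classFun h) hz hx]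
  exact Fintype.sum_equiv Multiplicative.ofAdd _ _ fun _ => rfl

theorem ratio_X {χ : G → ℂ} (h : IsCharacter G χ) {z : F} (hz : z ≠ 0) :
    -((3 * 𝐭 ^ 2 - 1)⁻¹ * (χ 1).re) ≤ (χ (Z.S 0 0 z)).re := by
  obtain ⟨n, hn⟩ := sum_X Z h hz
  have h1 := congrArg Complex.re hn
  rw [show ((𝐪 : ℂ) - 1) = ((3 * 𝐭 ^ 2 - 1 : ℝ) : ℂ) by rw [cast_q Z]; simp, Complex.add_re,
    Complex.re_ofReal_mul, Complex.natCast_re] at h1
  have h2 : (1 : ℝ) ≤ 𝐭 := one_le_pow₀ (by norm_num)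
  have h3 : 0 < 3 * 𝐭 ^ 2 - 1 := by nlinarith
  rw [← mul_neg, inv_mul_le_iff₀ h3]
  linarith [n.cast_nonneg (α := ℝ)]

include Z in
theorem ratio_J {χ : G → ℂ} (h : IsCharacter G χ) {g : G} (h1 : g ≠ 1) (h2 : g * g = 1) :
    -(7⁻¹ * (χ 1).re) ≤ (χ g).re := by
  have := Fintype.ofFinite Z.P
  obtain ⟨n, hn⟩ := sum_hom_nat Z.P.subtype h
  replace hn : ∑ a : Z.P, χ a = n := hn
  have e1 := sig_eq Z.P χ
  rw [sig_const (c := χ g) fun x hx hx1 => ?_, Z.card_P] at e1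
  · have e2 : χ 1 + 7 * χ g = n := by
      rw [← hn]; push_cast at e1; linear_combination e1
    have := congrArg Complex.re e2
    simp only [Complex.add_re, Complex.natCast_re, Complex.mul_re, Complex.re_ofNat, Complex.im_ofNat] at this
    linarith [n.cast_nonneg (α := ℝ)]
  · obtain ⟨k, rfl⟩ := Z.conj_i_of_invol h1 h2
    obtain ⟨l, rfl⟩ := Z.conj_i_of_invol hx1 (Z.sq_of_mem_P hx)
    rw [isChar_classFun h, isChar_classFun h]

theorem card_X {z : F} (hz : z ≠ 0) : Nat.card (𝐂 (Z.S 0 0 z)) ≤ 𝐪 ^ 3 := by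
  rw [← Z.card_U]
  refine Subgroup.card_le_of_le fun c hc => ?_
  rw [Subgroup.mem_centralizer_singleton_iff] at hc
  obtain ⟨x, y, w, κ, rfl⟩ := (Z.stab c).mp (Z.mem_B_of_comm (Z.S_mem _ _ _) (by simp [Z.S_eq_one_iff, hz]) hc)
  rw [mul_assoc, Z.M_mul_S, ← mul_assoc, ← mul_assoc, mul_left_inj, Z.S_mul, Z.S_mul, Z.S_eq_iff] at hc
  have h1 : (κ : F) ^ 2 * Z.σ κ = 1 := mul_right_cancel₀ hz (by
    have := hc.2.2
    simp only [mul_zero, map_zero, zero_mul] at this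
    linear_combination this)
  rw [show κ = 1 from Units.ext (Z.of_sq_mul_σ h1), map_one, mul_one]
  exact Z.S_mem _ _ _

theorem T_eq {χ : G → ℂ} (h : IsCharacter G χ) {y y' : F} (z z' : F) (hy : y ≠ 0) (hy' : y' ≠ 0) :
    (χ (Z.S 0 y' z')).re = (χ (Z.S 0 y z)).re := by
  have e1 : ∀ y z, y ≠ 0 → χ (Z.S 0 y z) = χ (Z.S 0 y 0) := fun y z hy => by
    rw [← isChar_classFun h (Z.S 0 y 0) (Z.S (z / y) 0 0), conj_S2, Z.S_mul]
    simp [hy]
  obtain ⟨φ, hφ, φ0, hφ'⟩ := exists_sign Z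
  obtain ⟨κ, hκ⟩ := Finite.injective_iff_surjective.mp hφ (y' / y)
  have h0 : κ ≠ 0 := by rintro rfl; simp [φ0, hy, hy', eq_comm] at hκ
  rw [e1 y z hy, e1 y' z' hy', ← isChar_classFun h (Z.S 0 y 0) (Z.M (Units.mk0 κ h0)), Z.M_S]
  rcases hφ' κ h0 with e | e <;> rw [hκ, div_eq_iff hy] at e
  · simp [e]
  · rw [← Complex.conj_re, ← isChar_inv h, Z.S_inv]
    simp [e]

theorem ratio_T (hm : 1 ≤ m) {χ : G → ℂ} (h : IsIrrCharacter G χ) (h1 : χ ≠ fun _ => 1) {y : F} (z : F)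
    (hy : y ≠ 0) : -(((3 * 𝐭 ^ 2 * (3 * 𝐭 ^ 2 - 1))⁻¹ + 2 * 𝐭 / (9 * 𝐭 ^ 4 - 3 * 𝐭 ^ 2 + 1)) * (χ 1).re) ≤
      (χ (Z.S 0 y z)).re := by
  let f : Multiplicative (F × F) →* G :=
    { toFun := fun a => Z.S 0 a.toAdd.1 a.toAdd.2
      map_one' := Z.S_zero
      map_mul' := fun a b => by rw [Z.S_mul]; simp }
  obtain ⟨n, hn⟩ := sum_hom_nat f (isIrr_isChar h)
  have e1 : ∑ p : F × F, ((χ (Z.S 0 p.1 p.2)).re : ℂ) = n := by
    rw [← Complex.ofReal_sum, ← Complex.re_sum, show ∑ p : F × F, χ (Z.S 0 p.1 p.2) = n from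
      (Fintype.sum_equiv Multiplicative.ofAdd _ _ fun _ => rfl).trans hn]; simp
  rw [Fintype.sum_prod_type, sum_erase_const _ (𝐪 * (χ (Z.S 0 y z)).re) (fun x hx => by
      simp only [fun w => T_eq Z (isIrr_isChar h) z w hy hx, Finset.sum_const, Finset.card_univ, nsmul_eq_mul]),
    sum_erase_const _ (χ (Z.S 0 0 1)).re (fun x hx => by rw [X_eq Z (isIrr_classFun h) one_ne_zero hx]),
    Z.S_zero] at e1
  have e2 : (χ 1).re + (𝐪 - 1) * (χ (Z.S 0 0 1)).re + (𝐪 - 1) * (𝐪 * (χ (Z.S 0 y z)).re) = n := by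
    exact_mod_cast e1
  have e3 := (norm_sq_le h (Z.S 0 0 1)).trans (Nat.cast_le.mpr (card_X Z one_ne_zero))
  rw [Nat.cast_pow, real_q Z] at e3
  rw [real_q Z] at e2
  have e4 := min_deg Z hm h h1
  have h2 : (1 : ℝ) ≤ 𝐭 := one_le_pow₀ (by norm_num)
  generalize 𝐭 = t at *
  have e5 : (χ (Z.S 0 0 1)).re ≤ 2 * t * (3 * t ^ 2) :=
    (Complex.re_le_norm _).trans (abs_le_of_sq_le_sq' (e3.trans (by nlinarith [pow_pos (show 0 < t by linarith) 6]))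
      (by positivity)).2
  have h3 : 0 < 3 * t ^ 2 - 1 := by nlinarith
  have h4 : 0 < 9 * t ^ 4 - 3 * t ^ 2 + 1 := by nlinarith
  have h5 : 2 * t ≤ 2 * t / (9 * t ^ 4 - 3 * t ^ 2 + 1) * (χ 1).re := by
    rw [div_mul_eq_mul_div, le_div_iff₀ h4]; gcongr
  have h6 : -((3 * t ^ 2 * (3 * t ^ 2 - 1))⁻¹ * (χ 1).re) ≤ (χ (Z.S 0 y z)).re + 2 * t := by
    rw [← mul_neg, inv_mul_le_iff₀ (by positivity)]
    nlinarith [n.cast_nonneg (α := ℝ)]
  linarith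

theorem card_Y {x : F} (y z : F) (hx : x ≠ 0) : Nat.card (𝐂 (Z.S x y z)) ≤ 3 * 𝐪 := by
  refine (card_le_of_param (ι := Fin 3 × F) (fun p => Z.S (![0, 1, -1] p.1 * x) (![0, 1, -1] p.1 * y +
    ![0, 0, -(Z.σ x * x)] p.1) p.2) fun c hc => ?_).trans (by simp)
  rw [Subgroup.mem_centralizer_singleton_iff] at hc
  obtain ⟨u, v, w, κ, rfl⟩ := (Z.stab c).mp (Z.mem_B_of_comm (Z.S_mem _ _ _) (by simp [Z.S_eq_one_iff, hx]) hc)
  rw [mul_assoc, Z.M_mul_S, ← mul_assoc, ← mul_assoc, mul_left_inj, Z.S_mul, Z.S_mul, Z.S_eq_iff] at hc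
  obtain rfl : κ = 1 := Units.ext (mul_right_cancel₀ hx (by rw [Units.val_one]; linear_combination hc.1))
  obtain ⟨r, rfl⟩ : ∃ r, u = r * x := ⟨u / x, by field_simp⟩
  simp only [Units.val_one, map_one, one_mul, one_pow, map_mul] at hc
  have h1 : Z.σ r = r := mul_right_cancel₀ (show Z.σ x * x ≠ 0 by simp [hx]) (by linear_combination hc.2.1)
  have h2 := hc.2.2
  rw [h1] at h2
  rw [map_one, mul_one]
  by_cases h0 : r = 0
  · subst h0
    exact ⟨(0, w), Z.S_eq_iff.mpr ⟨rfl, mul_left_cancel₀ hx (by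
      change x * v = x * (0 * y + 0); linear_combination -h2), rfl⟩⟩
  rcases Z.of_σ_eq h0 h1 with rfl | rfl
  · exact ⟨(1, w), Z.S_eq_iff.mpr ⟨rfl, mul_left_cancel₀ hx (by
      change x * v = x * (1 * y + 0); linear_combination -h2), rfl⟩⟩
  · exact ⟨(2, w), Z.S_eq_iff.mpr ⟨rfl, mul_left_cancel₀ hx (by
      change x * v = x * (-1 * y + -(Z.σ x * x)); linear_combination -h2 - Z.σ x * x ^ 2 * Z.three), rfl⟩⟩

theorem card_JT {y : F} (hy : y ≠ 0) : Nat.card (𝐂 (Z.S 0 y 0 * Z.i)) ≤ 3 * 𝐪 := by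
  refine (card_le_of_param (ι := Fin 2 × F) (fun p => Z.S 0 p.2 0 * Z.M (![1, -1] p.1)) fun c hc => ?_).trans
    (by simp; omega)
  rw [Subgroup.mem_centralizer_singleton_iff] at hc
  have hc' : Commute c (Z.S 0 y 0 * Z.i) := hc
  have h1 := (hc'.pow_right 2).eq
  rw [pow_two, Z.S_i_sq] at h1
  have h2 : c * Z.i = Z.i * c := by
    have e := (hc'.pow_right 3).eq
    have e2 : (Z.S 0 y 0 * Z.i) ^ 3 = Z.i := by
      rw [pow_succ, pow_two, Z.S_i_sq, ← mul_assoc, Z.S_mul]; simp [Z.S_zero]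
    rwa [e2] at e
  obtain ⟨u, v, w, κ, rfl⟩ := (Z.stab c).mp (Z.mem_B_of_comm (Z.S_mem _ _ _) (by simp [Z.S_eq_one_iff, hy]) h1)
  rw [mul_assoc, Z.M_comm, ← mul_assoc, ← mul_assoc, mul_left_inj, eq_comm, Z.comm_i_iff] at h2
  obtain ⟨rfl, rfl⟩ := h2
  rw [mul_assoc, Z.M_mul_S, ← mul_assoc, ← mul_assoc, mul_left_inj, Z.S_mul, Z.S_mul, Z.S_eq_iff] at h1
  have h3 : (κ : F) * Z.σ κ = 1 := mul_right_cancel₀ hy (by
    have := h1.2.1
    simp only [mul_zero] at this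
    linear_combination -this)
  rcases Model.units_eq (Z.of_mul_σ h3) with rfl | rfl
  · exact ⟨(0, v), rfl⟩
  · exact ⟨(1, v), rfl⟩

theorem cent_D {x : G} (hx : x ∈ Z.D) (h : x * x ≠ 1) : (𝐂 x) = Z.D := by
  refine le_antisymm ?_ fun g hg => Subgroup.mem_centralizer_singleton_iff.mpr (Z.D_comm hg hx)
  rw [← Z.centralizer_A (Z.sq_mem_A hx) h, ← pow_two]
  exact Model.centralizer_le_pow x 2

theorem fpf_D {x : G} (hx : x ∈ Z.D) (h : x * x ≠ 1) (c : Ω) : x • c ≠ c := fun hc =>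
  h (eq_one_of_coprime Z.coprime_n (Z.sq_mem_A hx).2 (Z.pow_of_comm_fix h hc (mul_assoc _ _ _)))

theorem exists_invol {x : G} (hx : x * Z.i = Z.i * x) (h6 : x ^ 6 ≠ 1) {g : G} (h1 : g ≠ 1) (h2 : g * g = 1) :
    ∃ u v : G, g = (u * x * u⁻¹) * (v * x * v⁻¹) := by
  have h3 := Z.three
  obtain ⟨h, hh⟩ := Z.comm_i_iff_φ.mp hx
  have hP : ¬ GL2.Par (h : Matrix (Fin 2) (Fin 2) F) := by
    rintro ⟨e, e1, e2⟩
    apply h6
    have e3 : Z.φ h ^ 3 = 1 := by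
      rw [← map_pow, Z.φ_eq_one_iff]
      have d := h.det_coe
      rw [d] at e2
      rw [Matrix.det_fin_two] at d
      rw [Matrix.trace_fin_two] at e1
      have e4 : h.1 1 1 = e + e - h.1 0 0 := by linear_combination e1
      rw [e4] at d
      rcases mul_self_eq_one_iff.mp e2.symm with rfl | rfl
      · left
        refine sl_ext ?_ ?_ ?_ ?_ <;> simp only [pow_succ, pow_zero, one_mul, sl_mul, e4] <;> simp <;> grind
      · right
        refine sl_ext ?_ ?_ ?_ ?_ <;> simp only [pow_succ, pow_zero, one_mul, sl_mul, e4] <;> simp <;> grind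
    rcases hh with rfl | rfl
    · rw [show 6 = 3 * 2 from rfl, pow_mul, e3, one_pow]
    · rw [Commute.mul_pow (Z.φ_comm_i h), show 6 = 3 * 2 from rfl, pow_mul, e3, one_pow, one_mul, mul_comm,
        pow_mul, pow_two, Z.i_mul_i, one_pow]
  set τ := (h : Matrix (Fin 2) (Fin 2) F).trace with hτ
  have hτ1 : 1 - τ ^ 2 ≠ 0 := fun e => hP ⟨-τ, by linear_combination τ * h3, by
    rw [h.det_coe]; linear_combination e⟩
  obtain ⟨a, c, e⟩ := FiniteField.exists_root_sum_quadratic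
    (Polynomial.degree_quadratic (a := (1 : F)) (b := -τ) (c := 1) one_ne_zero)
    (Polynomial.degree_quadratic (b := τ ^ 2) (c := 0) hτ1) (by have := Z.q_mod; omega)
  simp only [Polynomial.eval_add, Polynomial.eval_mul, Polynomial.eval_C, Polynomial.eval_pow,
    Polynomial.eval_X] at e
  let A : SL(2, F) := ⟨!![0, -1; 1, τ], by simp⟩
  let B : SL(2, F) := ⟨!![a + τ * c, c - τ * (τ - (a + τ * c)); c, τ - (a + τ * c)], by
    rw [Matrix.det_fin_two_of]; linear_combination -e + (τ ^ 2 * c - a * τ * c - τ ^ 2 * c ^ 2) * h3⟩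
  obtain ⟨k, hk⟩ := isConj_iff.mp (GL2.isConj_SL_ss (h := A) hP (by simp [A, ← hτ]))
  obtain ⟨l, hl⟩ := isConj_iff.mp (GL2.isConj_SL_ss (h := B) hP (by simp [B, ← hτ]))
  have key : ∀ M : SL(2, F), M.1 1 1 = -M.1 0 0 → M * M = -1 := by
    intro M hM
    have d := M.det_coe
    rw [Matrix.det_fin_two, hM] at d
    refine sl_ext ?_ ?_ ?_ ?_ <;> simp only [sl_mul, hM] <;> simp <;> grind
  have e1 : A * B * (A * B) = -1 := key _ (by
    rw [sl_mul, sl_mul]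
    change 1 * (c - τ * (τ - (a + τ * c))) + τ * (τ - (a + τ * c)) = -(0 * (a + τ * c) + -1 * c)
    ring)
  have e2 : Z.φ k * x * (Z.φ k)⁻¹ * (Z.φ l * x * (Z.φ l)⁻¹) = Z.φ (A * B) := by
    rw [← hk, ← hl]
    rcases hh with rfl | rfl
    · simp
    · simp only [← map_inv, ← mul_assoc, ← map_mul, Z.φ_i_mul]
      rw [mul_assoc, Z.i_mul_i, mul_one]
  have e3 : Z.φ (A * B) ≠ 1 := fun e => by
    have := congrArg (fun M : SL(2, F) => M.1 0 0) e1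
    rcases Z.φ_eq_one_iff.mp e with e | e <;> simp [e] at this <;> exact Z.two_ne (by linear_combination this)
  obtain ⟨w, rfl⟩ := Z.conj_i_of_invol h1 h2
  obtain ⟨w', e4⟩ := Z.conj_i_of_invol e3 (by rw [← map_mul, e1, Z.φ_neg_one])
  refine ⟨w * w'⁻¹ * Z.φ k, w * w'⁻¹ * Z.φ l, ?_⟩
  calc w * Z.i * w⁻¹ = w * w'⁻¹ * (w' * Z.i * w'⁻¹) * (w * w'⁻¹)⁻¹ := by group
    _ = _ := by rw [e4, ← e2]; group

end Cfsg.Agent.SzC.Re
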