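import Mathlib
import Cfsg.Agent.SzC.ReeA

set_option autoImplicit false
set_option linter.unusedSectionVars false

/-! Exceptional characters of a small Ree group, and squares of semisimple classes. -/

open scoped ComplexConjugate

namespace Cfsg.Agent.SzC.Re

open Cfsg Cfsg.Agent.Char Cfsg.Agent.Char.Ind Cfsg.Agent.RankOne Cfsg.Agent.Ree

variable {G Ω F : Type*} [Group G] [MulAction G Ω] [Field F] [Fintype F] {m : ℕ} (Z : Model G Ω F m)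
  [Fintype G]

local notation "𝐬" => ((3 : ℂ) ^ m)
local notation "𝐭" => ((3 : ℝ) ^ m)
local notation "𝐪" => Fintype.card F
local notation "𝐍" => Fintype.card F ^ 2 - Fintype.card F + 1
local notation "𝐂" g => Subgroup.centralizer ({g} : Set G)

open _root_.Classical in
theorem sum_split {f : G → ℂ} {A B : Subgroup G} (hd : ∀ g ∈ conjSet A, g ∉ conjSet B)
    (h0 : ∀ g, g ≠ 1 → g ∉ conjSet A → g ∉ conjSet B → f g = 0) :
    ∑ g, f g = f 1 + ∑ g with g ∈ conjSet A, f g + ∑ g with g ∈ conjSet B, f g := by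
  rw [Finset.sum_filter, Finset.sum_filter, ← Fintype.sum_ite_eq' 1 f, ← Finset.sum_add_distrib,
    ← Finset.sum_add_distrib]
  refine Finset.sum_congr rfl fun g _ => ?_
  by_cases h1 : g = 1
  · subst h1; simp [conjSet]
  by_cases hA : g ∈ conjSet A
  · simp [h1, hA, hd g hA]
  by_cases hB : g ∈ conjSet B
  · simp [h1, hA, hB]
  · simp [h1, hA, hB, h0 g h1 hA hB]

include Z in
theorem exists_T (hm : 1 ≤ m) {x : G} (h1 : x ≠ 1) (hx : x ^ 𝐍 = 1) : ∃ (T : Subgroup G) (k : G) (u : ℤ),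
    CC T 6 ∧ k * x * k⁻¹ ∈ T ∧ (u = 1 ∨ u = -1) ∧ (Nat.card T : ℤ) = 3 * (3 ^ m) ^ 2 + 3 * u * 3 ^ m + 1 ∧
      ∀ y ∈ T, y ^ 𝐍 = 1 := by
  obtain ⟨g, h, g1, g2, e1, e2, e3, e4, e5⟩ := Z.exists_tori hm
  have hq : (𝐪 : ℤ) = 3 * (3 ^ m) ^ 2 := by rw [Z.card_F]; push_cast; ring
  rcases e5 x h1 hx with h2 | h2 <;> obtain ⟨-, k, hk⟩ := Model.mem_cc.mp h2
  · refine ⟨_, k, -1, ⟨fun y hy y1 => Z.torus_eq hm g1.1 g1.2 y1 hy, e1 ▸ e3⟩, hk, by simp, ?_,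
      fun y hy => Z.pow_of_mem_torus g1.1 g1.2 hy⟩
    rw [e1, Nat.cast_add, Nat.cast_sub (Z.r_lt hm).le, hq]; push_cast; ring
  · refine ⟨_, k, 1, ⟨fun y hy y1 => Z.torus_eq hm g2.1 g2.2 y1 hy, e2 ▸ e4⟩, hk, by simp, ?_,
      fun y hy => Z.pow_of_mem_torus g2.1 g2.2 hy⟩
    rw [e2, Nat.cast_add, Nat.cast_add, hq]; push_cast; ring

open _root_.Classical in
theorem exists_eta (hm : 1 ≤ m) {T : Subgroup G} (hT : CC T 6) {u : ℤ} (hu : u = 1 ∨ u = -1)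
    (hc : (Nat.card T : ℤ) = 3 * (3 ^ m) ^ 2 + 3 * u * 3 ^ m + 1) (hN' : ∀ y ∈ T, y ^ 𝐍 = 1) :
    ∃ E : (G → ℂ) → Prop, (∀ x ∈ T, x ≠ 1 → ∑ χ : IrrCharacter G with ¬ E χ.1, ‖χ.1 x‖ ^ 2 ≤ 7) ∧
      ∀ χ, E χ → (∀ z, z ≠ 0 → χ 1 = -((3 * 𝐬 ^ 2) ^ 2 - 1) * χ (Z.S 0 0 z)) ∧
        ∀ g, g ≠ 1 → g * g = 1 → χ g = 0 := by
  obtain ⟨c, hc'⟩ : ∃ c : ℤ, 3 ^ m - u = c + c :=
    Odd.sub_odd (Odd.pow (by decide)) (by rcases hu with rfl | rfl <;> decide)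
  obtain ⟨Ψ, a0, a1, a2, a3, a4, a5⟩ := exists_Psi Z c (3 * (3 ^ m) ^ 2 - 3 * u * 3 ^ m + 1)
  have hc2 : (Nat.card T : ℂ) = 3 * 𝐬 ^ 2 + 3 * u * 𝐬 + 1 := by exact_mod_cast hc
  have hc3 : (c : ℂ) = (𝐬 - u) / 2 := by
    have := congrArg (Int.cast : ℤ → ℂ) hc'
    push_cast at this
    linear_combination -this / 2
  have hu2 : (u : ℂ) ^ 2 = 1 := by rcases hu with rfl | rfl <;> simp
  rw [hc3] at a1 a2 a3
  push_cast at a1 a2
  have hTN : ∀ g ∈ conjSet T, g ^ 𝐍 = 1 := fun g ⟨_, k, hk⟩ => by simpa [conj_pow] using hN' _ hk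
  have hU9 : ∀ g ∈ conjSet Z.U, g ^ 9 = 1 := fun g ⟨_, k, hk⟩ => by simpa [conj_pow] using Z.pow_nine hk
  have hd : ∀ g ∈ conjSet Z.U, g ∉ conjSet T := fun g hg h =>
    hg.1 (eq_one_of_coprime (Z.coprime_N_three.pow_right 2) (hTN g h) (hU9 g hg))
  have hG : (Nat.card G : ℂ) = (3 * 𝐬 ^ 2) ^ 3 * (3 * 𝐬 ^ 2 - 1) * ((3 * 𝐬 ^ 2) ^ 3 + 1) := by
    rw [Z.card_G, Nat.cast_mul, Nat.cast_mul, cast_q_sub Z]; push_cast; rw [cast_q Z]
  have hB : (Nat.card Z.B : ℂ) = (3 * 𝐬 ^ 2) ^ 3 * (3 * 𝐬 ^ 2 - 1) := by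
    rw [Z.card_B, Nat.cast_mul, cast_q_sub Z]; push_cast; rw [cast_q Z]
  have hT0 : (3 * 𝐬 ^ 2 + 3 * u * 𝐬 + 1 : ℂ) ≠ 0 := hc2 ▸ card_ne_zero
  have hi : (T.index : ℂ) = (3 * 𝐬 ^ 2) ^ 3 * ((3 * 𝐬 ^ 2) ^ 2 - 1) * (3 * 𝐬 ^ 2 - 3 * u * 𝐬 + 1) := by
    apply mul_left_cancel₀ hT0
    rw [← hc2, ← Nat.cast_mul, T.card_mul_index, hG, hc2]
    linear_combination (9 * 𝐬 ^ 2 * (3 * 𝐬 ^ 2) ^ 3 * ((3 * 𝐬 ^ 2) ^ 2 - 1)) * hu2
  have := hT.isMulComm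
  have b0 : ∀ θ : T → ℂ, ∀ g ∈ Z.U, g ≠ 1 → indFun T θ g = 0 := fun θ g hg h1 =>
    ind_zero' _ h1 (hd g (mem_conjSet hg h1))
  have b1 : ∀ θ : IrrCharacter T, (Ψ - indFun T θ.1) 1 = ((3 * 𝐬 ^ 2) ^ 2 - 1) * (3 * 𝐬 ^ 2 - 3 * u * 𝐬 + 1) :=
    fun θ => by
      rw [Pi.sub_apply, a1, indFun_one, isIrr_degree_one_of_comm θ.2, hi]
      ring
  have b2 : ∀ (θ : T → ℂ) z, z ≠ 0 → (Ψ - indFun T θ) (Z.S 0 0 z) = -(3 * 𝐬 ^ 2 - 3 * u * 𝐬 + 1) :=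
    fun θ z hz => by
      rw [Pi.sub_apply, a2 z hz, b0 θ _ (Z.S_mem _ _ _) (by simp [Z.S_eq_one_iff, hz])]
      ring
  have b3 : ∀ θ ∈ np T, IsIrrCharacter G (Ψ - indFun T θ.1) := by
    intro θ hθ
    have hg := isGenChar_sub a0 (IndRep.isGenChar_indFun T (irr_isGenChar θ))
    refine isIrr_of_isGenChar_norm_one hg ?_ ?_
    · have hf : IsClassFunction G fun g => (Ψ - indFun T θ.1) g * conj ((Ψ - indFun T θ.1) g) := fun g k => by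
        simp only [isGenChar_classFun hg g k]
      have e1 := sum_conjSet (N := Z.B) (fun n hn x hx => Z.conj_mem_U hn hx) (hTI_U Z) hf
      have e2 := sum_conjSet (CC.hN T) hT.hTI hf
      rw [sig_U Z (a := (3 * 𝐬 ^ 2 - 3 * u * 𝐬 + 1) ^ 2) (b := (3 * u * 𝐬 - 1) ^ 2) (c := 1)
        (fun z hz => by rw [b2 _ z hz]; simp only [map_neg, map_add, map_sub, map_mul, map_pow, map_ofNat, map_one, map_intCast]; ring)
        (fun y z hy => by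
          rw [Pi.sub_apply, a3 y z hy, b0 _ _ (Z.S_mem _ _ _) (by simp [Z.S_eq_one_iff, hy])]
          simp only [map_div₀, map_zero, map_sub, map_mul, map_pow, map_ofNat, map_one, map_intCast]; ring)
        (fun x y z hx => by
          rw [Pi.sub_apply, a4 x y z hx, b0 _ _ (Z.S_mem _ _ _) (by simp [Z.S_eq_one_iff, hx])]; simp),
        hB, hG] at e1
      rw [sig_congr (g := fun x => indFun T θ.1 x * conj (indFun T θ.1 x)) fun x hx h1 => by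
          rw [Pi.sub_apply, a5 x h1 fun h => hd x h (mem_conjSet hx h1)]; simp,
        hT.sig_norm θ.2 (mem_np.mp hθ), hT.card, Nat.cast_mul, hc2, hG] at e2
      apply mul_left_cancel₀ (card_ne_zero (G := G))
      rw [card_mul_classInner, sum_split hd fun g h1 hA hB => by
        rw [Pi.sub_apply, a5 g h1 hA, ind_zero' _ h1 hB]; simp, b1, hG]
      have hB0 : (3 * 𝐬 ^ 2) ^ 3 * (3 * 𝐬 ^ 2 - 1) ≠ 0 := hB ▸ card_ne_zero
      rw [mul_comm, mul_assoc ((3 * 𝐬 ^ 2) ^ 3 * (3 * 𝐬 ^ 2 - 1))] at e1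
      rw [mul_left_cancel₀ hB0 e1]
      simp only [map_add, map_sub, map_mul, map_pow, map_ofNat, map_one, map_intCast]
      apply mul_left_cancel₀ hT0
      push_cast at e2
      rcases hu with rfl | rfl <;> push_cast at e2 ⊢ <;> linear_combination e2 / 6
    · obtain ⟨n, hn⟩ : ∃ n : ℕ, (3 * 𝐬 ^ 2) ^ 3 * (Ψ - indFun T θ.1) 1 = n := ⟨T.index, by rw [b1, hi]; ring⟩
      have := congrArg Complex.re hn
      rw [show (3 * 𝐬 ^ 2) ^ 3 = (((3 * 𝐭 ^ 2) ^ 3 : ℝ) : ℂ) by simp, Complex.re_ofReal_mul,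
        Complex.natCast_re] at this
      exact nonneg_of_mul_nonneg_right (a := (3 * 𝐭 ^ 2) ^ 3) (this ▸ n.cast_nonneg) (by positivity)
  refine ⟨fun χ => ∃ θ ∈ np T, χ = Ψ - indFun T θ.1, fun x hx h1 => ?_, ?_⟩
  · have e1 := hT.bessel (fun χ => ∃ θ ∈ np T, χ = Ψ - indFun T θ.1) (fun χ hχ hE =>
      hT.const_of (isIrr_classFun hχ) (c := classInner χ Ψ) fun θ hθ => by
        have := classInner_isIrr_ne hχ (b3 θ hθ) fun e => hE ⟨θ, hθ, e⟩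
        rw [classInner_sub_right] at this
        linear_combination -this) hx h1
    have e2 : (7 : ℝ) ≤ Nat.card T := by
      rw [← hT.cent x hx h1]
      exact_mod_cast Z.seven_le_card hm h1 (hN' x hx)
    push_cast at e1
    exact le_of_mul_le_mul_right (e1.trans (by linarith)) (by linarith)
  · rintro _ ⟨θ, hθ, rfl⟩
    refine ⟨fun z hz => by rw [b1, b2 _ z hz]; ring, fun g h1 h2 => ?_⟩
    rw [Pi.sub_apply, a5 g h1 fun h => h1 (eq_one_of_coprime (by norm_num) (hU9 g h) ((pow_two g).trans h2)),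
      ind_zero' _ h1 fun h => h1 (eq_one_of_coprime Z.coprime_N_two (hTN g h) ((pow_two g).trans h2)), sub_zero]

theorem t_ge (hm : 1 ≤ m) : 3 ≤ 𝐭 := by simpa using pow_le_pow_right₀ (a := (3 : ℝ)) (by norm_num) hm

include Z in
theorem pos_small (hm : 1 ≤ m) {x g : G} (hx : IsConj x x⁻¹)
    (hc : (Nat.card (𝐂 x) : ℝ) ≤ 3 * 𝐭 ^ 2 + 3 * 𝐭 + 1) (hg : Nat.card (𝐂 g) ≤ 3 * 𝐪) : 0 < (cs x g).re := by
  have ht := t_ge hm
  have h4 : 0 < 9 * 𝐭 ^ 4 - 3 * 𝐭 ^ 2 + 1 := by nlinarith [sq_nonneg (3 * 𝐭 ^ 2 - 1), sq_nonneg 𝐭]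
  refine cs_pos hx (μ := 3 * 𝐭 / (9 * 𝐭 ^ 4 - 3 * 𝐭 ^ 2 + 1)) (by positivity) (fun χ h h1 => ?_) ?_
  · have e1 := (norm_sq_le h g).trans (Nat.cast_le.mpr hg)
    rw [Nat.cast_mul, real_q Z] at e1
    refine le_trans (neg_le_neg ?_) (neg_le_re (c := 3 * 𝐭)
      (abs_le_of_sq_le_sq' (e1.trans (by push_cast; linarith)) (by positivity)).2)
    rw [div_mul_eq_mul_div, le_div_iff₀ h4]
    gcongr
    exact min_deg Z hm h h1
  · rw [div_mul_eq_mul_div, div_lt_one h4]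
    generalize 𝐭 = t at *
    nlinarith [mul_le_mul_of_nonneg_left hc (show 0 ≤ 3 * t by linarith), mul_nonneg (sub_nonneg.mpr ht)
      (show 0 ≤ t ^ 3 by positivity), mul_nonneg (sub_nonneg.mpr ht) (show 0 ≤ t ^ 2 by positivity)]

theorem pos_T (hm : 1 ≤ m) {x : G} (hx : IsConj x x⁻¹)
    (hc : (Nat.card (𝐂 x) : ℝ) ≤ 3 * 𝐭 ^ 2 + 3 * 𝐭 + 1) {y : F} (z : F) (hy : y ≠ 0) :
    0 < (cs x (Z.S 0 y z)).re := by
  have ht := t_ge hm
  have h4 : 0 < 9 * 𝐭 ^ 4 - 3 * 𝐭 ^ 2 + 1 := by nlinarith [sq_nonneg (3 * 𝐭 ^ 2 - 1), sq_nonneg 𝐭]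
  have h3 : 0 < 3 * 𝐭 ^ 2 - 1 := by nlinarith
  refine cs_pos hx (by positivity) (fun χ h h1 => ratio_T Z hm h h1 z hy) ?_
  generalize 𝐭 = t at *
  have e1 : (3 * t ^ 2 * (3 * t ^ 2 - 1))⁻¹ * (3 * t ^ 2 + 3 * t) ≤ 1 / 2 := by
    rw [inv_mul_le_iff₀ (by positivity)]
    nlinarith [mul_nonneg (sub_nonneg.mpr ht) (show 0 ≤ t ^ 3 by positivity),
      mul_nonneg (sub_nonneg.mpr ht) (show 0 ≤ t ^ 2 by positivity)]
  have e2 : 2 * t / (9 * t ^ 4 - 3 * t ^ 2 + 1) * (3 * t ^ 2 + 3 * t) < 1 / 2 := by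
    rw [div_mul_eq_mul_div, div_lt_iff₀ h4]
    nlinarith [mul_nonneg (sub_nonneg.mpr ht) (show 0 ≤ t ^ 3 by positivity),
      mul_nonneg (sub_nonneg.mpr ht) (show 0 ≤ t ^ 2 by positivity)]
  refine lt_of_le_of_lt (mul_le_mul_of_nonneg_left (c := 3 * t ^ 2 + 3 * t) (by linarith) (by positivity)) ?_
  linarith

theorem ne_D (hm : 1 ≤ m) (Y : Model G Ω F m) {x : G} (hx : x ∈ Z.D) (h : x * x ≠ 1) {z : F} (hz : z ≠ 0) :
    cs x (Y.S 0 0 z) ≠ 0 := by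
  classical
  intro h0
  have := Z.finite_Ω
  have : Nontrivial Ω := ⟨_, _, Z.ta_ne⟩
  have : MulAction.IsPretransitive G Ω := ⟨fun c d => by
    obtain ⟨g, rfl⟩ := Z.exists_smul c
    obtain ⟨k, rfl⟩ := Z.exists_smul d
    exact ⟨k * g⁻¹, by rw [mul_smul, inv_smul_smul]⟩⟩
  let St : IrrCharacter G := ⟨_, (isIrr_perm_sub_one_iff Ω).mpr (MulAction.is_two_pretransitive_iff.mpr
    fun h1 h2 => by
      obtain ⟨g, rfl, rfl⟩ := Z.exists_pair h1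
      obtain ⟨k, rfl, rfl⟩ := Z.exists_pair h2
      exact ⟨k * g⁻¹, by rw [mul_smul, inv_smul_smul], by rw [mul_smul, inv_smul_smul]⟩)⟩
  let t : IrrCharacter G := ⟨fun _ => 1, isIrr_one⟩
  have hz1 : Y.S 0 0 z ≠ 1 := by simp [Y.S_eq_one_iff, hz]
  have s1 : St.1 1 = 𝐪 ^ 3 := by simp [St, Z.card_Ω]
  have s2 : St.1 (Y.S 0 0 z) = 0 := by
    have : MulAction.fixedBy Ω (Y.S 0 0 z) = {Y.a} :=
      Set.eq_singleton_iff_unique_mem.mpr ⟨Y.S_a _ _ _, fun c hc => Y.is_a_of_U (Y.S_mem _ _ _) hz1 hc⟩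
    simp [St, this]
  have s3 : St.1 x = -1 := by
    have : MulAction.fixedBy Ω x = ∅ := Set.eq_empty_of_forall_notMem fun c hc => fpf_D Z hx h c hc
    simp [St, this]
  have hr : IsConj x x⁻¹ := isConj_iff.mpr ⟨_, Z.j_conj hx⟩
  choose n hn using fun χ : IrrCharacter G => sum_X Y (isIrr_isChar χ.2) hz
  have hq : (27 : ℝ) ≤ 𝐪 := by exact_mod_cast Z.le_q hm
  have ne : t ≠ St := fun e => by
    have := congrArg (fun χ : IrrCharacter G => χ.1 x) e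
    simp only [s3, t] at this
    norm_num at this
  have e1 : ∑ χ : IrrCharacter G, ‖χ.1 x‖ ^ 2 * (n χ / (χ.1 1).re) = 𝐪 + 1 := by
    have e2 := congrArg (fun w : ℂ => (𝐪 - 1 : ℝ) * w.re) h0
    have e3 := sum_irr_norm_sq x
    rw [cent_D Z hx h, Z.card_D] at e3
    simp only [cs_re_eq hr, Complex.zero_re, mul_zero, Finset.mul_sum] at e2
    push_cast at e3
    rw [← e3, ← sub_eq_zero, ← Finset.sum_sub_distrib, ← e2]
    refine Finset.sum_congr rfl fun χ _ => ?_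
    have e4 := congrArg Complex.re (hn χ)
    rw [show ((𝐪 : ℂ) - 1) = ((𝐪 - 1 : ℝ) : ℂ) by simp, Complex.add_re, Complex.re_ofReal_mul,
      Complex.natCast_re] at e4
    have := (deg_pos χ).1.ne'
    rw [← e4]
    field_simp
    ring
  have n1 : (n t : ℂ) = 𝐪 := by rw [← hn]; simp [t]
  have n2 : (n St : ℂ) = 𝐪 ^ 3 := by rw [← hn, s1, s2]; simp
  have e5 : ∑ χ : IrrCharacter G, n χ * conj (χ.1 x) = 0 := by
    simp only [← hn, add_mul, mul_assoc, Finset.sum_add_distrib, ← Finset.mul_sum]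
    rw [sum_irr_mul_conj_of_not_isConj, sum_irr_mul_conj_of_not_isConj, mul_zero, add_zero]
    · rintro ⟨k, hk⟩
      exact fpf_D Z hx h (k • Y.a) (by rw [Units.smul_def, ← mul_smul, ← hk.eq, mul_smul, Y.S_a])
    · intro e
      exact h (by rw [isConj_one_right.mp e, mul_one])
  rw [← Finset.add_sum_erase _ _ (Finset.mem_univ t), ← Finset.add_sum_erase _ _
    (Finset.mem_erase.mpr ⟨ne.symm, Finset.mem_univ St⟩)] at e1 e5
  have n3 : (n t : ℝ) = 𝐪 := by exact_mod_cast n1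
  have n4 : (n St : ℝ) = 𝐪 ^ 3 := by exact_mod_cast n2
  have s4 : (St.1 1).re = 𝐪 ^ 3 := by rw [s1]; norm_cast
  rw [s3, s4, n3, n4, div_self (by positivity)] at e1
  have e6 : ∑ χ ∈ (Finset.univ.erase t).erase St, ‖χ.1 x‖ ^ 2 * (n χ / (χ.1 1).re) = 0 := by
    simpa [t, add_assoc] using e1
  rw [Finset.sum_eq_zero_iff_of_nonneg fun χ _ => by have := (deg_pos χ).1; positivity] at e6
  rw [Finset.sum_eq_zero fun χ hχ => by simpa [(deg_pos χ).1.ne', or_comm] using e6 χ hχ, n1, n2, s3] at e5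
  have e7 : (𝐪 : ℝ) - 𝐪 ^ 3 = 0 := by
    have : (𝐪 : ℂ) - 𝐪 ^ 3 = 0 := by simpa [t, sub_eq_add_neg] using e5
    exact_mod_cast this
  nlinarith [mul_pos (show (0 : ℝ) < 𝐪 by linarith) (show (0 : ℝ) < 𝐪 ^ 2 - 1 by nlinarith)]

include Z in
theorem cover_of (hm : 1 ≤ m) {x : G} (hx : IsConj x x⁻¹)
    (hc : (Nat.card (𝐂 x) : ℝ) ≤ 3 * 𝐭 ^ 2 + 3 * 𝐭 + 1)
    (hX : ∀ (Y : Model G Ω F m) z, z ≠ 0 → cs x (Y.S 0 0 z) ≠ 0)
    (hJ : ∀ g : G, g ≠ 1 → g * g = 1 → ∃ u v : G, g = (u * x * u⁻¹) * (v * x * v⁻¹)) (g : G) (hg : g ≠ 1) :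
    ∃ u v : G, g = (u * x * u⁻¹) * (v * x * v⁻¹) := by
  by_cases h2 : g * g = 1
  · exact hJ g hg h2
  have key : ∀ w : ℂ, 0 < w.re → w ≠ 0 := fun w h e => by simp [e] at h
  have hq := Z.le_q hm
  refine exists_of_cs ?_
  have hg' : g⁻¹ ≠ 1 := inv_ne_one.mpr hg
  have h2' : g⁻¹ * g⁻¹ ≠ 1 := by rwa [← mul_inv_rev, inv_ne_one]
  generalize g⁻¹ = g at hg' h2'
  rcases Z.cases g with ⟨Y, ⟨a, b, c, rfl⟩ | rfl | ⟨y, hy, rfl⟩ | ⟨κ, h1, h3, rfl⟩ | ⟨h1, h3⟩⟩ | hN'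
  · by_cases ha : a = 0
    · subst ha
      by_cases hb : b = 0
      · subst hb
        exact hX Y c (by simpa [Y.S_eq_one_iff] using hg')
      · exact key _ (pos_T Y hm hx hc c hb)
    · exact key _ (pos_small Z hm hx hc (card_Y Y b c ha))
  · exact absurd Y.i_mul_i h2'
  · exact key _ (pos_small Z hm hx hc (card_JT Y hy))
  · exact key _ (pos_small Z hm hx hc (by rw [Y.centralizer_M h1 h3, Y.card_H]; omega))
  · exact key _ (pos_small Z hm hx hc (by rw [cent_D Y h1 h3, Y.card_D]; omega))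
  · obtain ⟨T, k, u, hT, hk, hu, e, -⟩ := exists_T Z hm hg' hN'
    rw [← cs_conj_right x k]
    refine key _ (pos_small Z hm hx hc ?_)
    rw [hT.cent _ hk (by simpa using hg'), Z.card_F]
    have : (1 : ℤ) ≤ 3 ^ m := one_le_pow₀ (by norm_num)
    zify
    rw [pow_succ, pow_mul']
    rcases hu with rfl | rfl <;> nlinarith

include Z in
theorem cover (hm : 1 ≤ m) {x : G} (h18 : x ^ 18 ≠ 1) (g : G) (hg : g ≠ 1) :
    ∃ u v : G, g = (u * x * u⁻¹) * (v * x * v⁻¹) := by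
  have key : ∀ w : ℂ, 0 < w.re → w ≠ 0 := fun w h e => by simp [e] at h
  have ht := t_ge hm
  have h3 : 0 < 3 * 𝐭 ^ 2 - 1 := by nlinarith
  have h6 : x ^ 6 ≠ 1 := fun e => h18 (by rw [show 18 = 6 * 3 from rfl, pow_mul, e, one_pow])
  rcases Z.cases x with ⟨Y, h | rfl | ⟨y, hy, rfl⟩ | ⟨κ, h1, h2, rfl⟩ | ⟨h1, h2⟩⟩ | hN'
  · exact absurd (by rw [show 18 = 9 * 2 from rfl, pow_mul, Y.pow_nine h, one_pow]) h18
  · exact absurd (by rw [show 6 = 2 * 3 from rfl, pow_mul, pow_two, Y.i_mul_i, one_pow]) h6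
  · exact absurd (Y.S_i_pow_six y) h6
  · have hr : IsConj (Y.M κ) (Y.M κ)⁻¹ := isConj_iff.mpr ⟨_, Y.t_M κ⟩
    have hc : (Nat.card (𝐂 (Y.M κ)) : ℝ) = 3 * 𝐭 ^ 2 - 1 := by
      rw [Y.centralizer_M h1 h2, Y.card_H, Nat.cast_sub Fintype.card_pos, real_q Z, Nat.cast_one]
    refine cover_of Z hm hr (by linarith) (fun W z hz => key _ (cs_pos hr (by positivity)
      (fun χ h _ => ratio_X W (isIrr_isChar h) hz) ?_)) (fun g => exists_invol Y (Y.M_comm _ _) h6) g hg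
    rw [hc, inv_mul_lt_iff₀ h3]
    linarith
  · refine cover_of Z hm (isConj_iff.mpr ⟨_, Y.j_conj h1⟩) ?_ (fun W z hz => ne_D Y hm W h1 h2 hz)
      (fun g => exists_invol Y (Y.D_comm h1 Y.i_mem_D) h6) g hg
    rw [cent_D Y h1 h2, Y.card_D, Nat.cast_add, real_q Z, Nat.cast_one]
    linarith
  · have h1 : x ≠ 1 := fun e => h6 (by rw [e, one_pow])
    obtain ⟨T, k, u, hT, hk, hu, e, hN⟩ := exists_T Z hm h1 hN'
    have h2 : k * x * k⁻¹ ≠ 1 := by simpa using h1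
    suffices h : ∃ u v : G, g = (u * (k * x * k⁻¹) * u⁻¹) * (v * (k * x * k⁻¹) * v⁻¹) by
      obtain ⟨u, v, rfl⟩ := h
      exact ⟨u * k, v * k, by group⟩
    generalize k * x * k⁻¹ = x at hk h2
    have hr : IsConj x x⁻¹ := hT.isConj_inv (by decide) (Z.odd_N.of_dvd_nat (by
      rw [← hT.cent x hk h2]; exact Z.card_torus_dvd hm h2 (hN x hk))) hk
    have hc : (Nat.card (𝐂 x) : ℝ) ≤ 3 * 𝐭 ^ 2 + 3 * 𝐭 + 1 := by
      have : (Nat.card T : ℝ) = 3 * 𝐭 ^ 2 + 3 * u * 𝐭 + 1 := by exact_mod_cast e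
      rw [hT.cent x hk h2, this]
      rcases hu with rfl | rfl <;> push_cast <;> linarith
    refine cover_of Z hm hr hc (fun W z hz => key _ ?_) (fun g h3 h4 => exists_of_cs (key _ ?_)) g hg
    · obtain ⟨E, e1, e2⟩ := exists_eta W hm hT hu e hN
      have h5 : 0 < (3 * 𝐭 ^ 2) ^ 2 - 1 := by nlinarith
      refine lt_of_lt_of_le ?_ (cs_ge (ν := ((3 * 𝐭 ^ 2) ^ 2 - 1)⁻¹) hr E
        (fun h => one_ne_zero ((e2 _ h).2 _ Z.i_ne_one Z.i_mul_i)) (by positivity) (by positivity)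
        (fun χ h _ _ => ratio_X W (isIrr_isChar h) hz) (fun χ _ h => ?_) (e1 x hk h2))
      · have a1 : (3 * 𝐭 ^ 2 - 1)⁻¹ * (7 - 1) < 1 / 2 := by rw [inv_mul_lt_iff₀ h3]; nlinarith
        have a2 : ((3 * 𝐭 ^ 2) ^ 2 - 1)⁻¹ * (Nat.card (𝐂 x) : ℝ) ≤ 1 / 2 := by
          have a3 : 3 * 𝐭 ≤ 𝐭 ^ 2 := by nlinarith
          rw [inv_mul_le_iff₀ h5]; nlinarith
        linarith
      · rw [(e2 χ h).1 z hz, show -((3 * 𝐬 ^ 2) ^ 2 - 1) = ((-((3 * 𝐭 ^ 2) ^ 2 - 1) : ℝ) : ℂ) by simp,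
          Complex.re_ofReal_mul, neg_mul, mul_neg, neg_neg, inv_mul_cancel_left₀ h5.ne']
    · obtain ⟨E, e1, e2⟩ := exists_eta Z hm hT hu e hN
      have h5 : g⁻¹ ≠ 1 := inv_ne_one.mpr h3
      have h6 : g⁻¹ * g⁻¹ = 1 := by rw [← mul_inv_rev, h4, inv_one]
      refine lt_of_lt_of_le ?_ (cs_ge (ν := 0) hr E
        (fun h => one_ne_zero ((e2 _ h).2 _ Z.i_ne_one Z.i_mul_i)) (by positivity) le_rfl
        (fun χ h _ _ => ratio_J Z (isIrr_isChar h) h5 h6) (fun χ _ h => by simp [(e2 χ h).2 _ h5 h6]) (e1 x hk h2))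
      norm_num

end Cfsg.Agent.SzC.Re
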